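import Cfsg.Agent.Forms.OrthBasics

/-!
Membership of `Ω` in characteristic two whenever reflections generate.
-/

set_option autoImplicit false
set_option linter.unusedSectionVars false

namespace CfsgLib.InvTwo

open QuadraticMap Matrix
open CfsgLib.Forms

variable {F : Type*} [Field F] [Finite F] {ι : Type} [Fintype ι] [DecidableEq ι] {Q : QuadraticForm F (ι → F)}

theorem gen_of_hd (hQ : (polarBilin Q).Nondegenerate) (hd : Nat.card F ≠ 2 ∨ Fintype.card ι ≠ 4) :
    reflGroup Q = isom Q :=
  reflGroup_eq_isom hQ (by simpa [Module.finrank_fintype_fun_eq_card] using hd)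

/-- Generation also holds without totally singular planes. -/
theorem gen_of_no_plane (hQ : (polarBilin Q).Nondegenerate)
    (hpl : ∀ U : Submodule F (ι → F), Module.finrank F U = 2 → ∃ u ∈ U, Q u ≠ 0) : reflGroup Q = isom Q := by
  have hsiegel : ∀ (d a : ι → F) (hd : Q d = 0) (had : polar Q a d = 0), siegel Q d a hd had ∈ reflGroup Q := by
    intro d a hd had
    by_cases ha : Q a = 0
    · have h1 : siegel Q d a hd had = 1 := by
        refine LinearEquiv.ext fun v => ?_
        show siegelL Q d a v = v
        rw [siegelL_apply, ha]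
        by_cases hd0 : d = 0
        · simp [hd0]
        by_cases hmem : a ∈ Submodule.span F {d}
        · obtain ⟨l, rfl⟩ := Submodule.mem_span_singleton.1 hmem
          simp [polar_smul_right, smul_smul, mul_comm]
        exfalso
        have hli : LinearIndependent F ![d, a] := (LinearIndependent.pair_iff' hd0).2 fun t ht =>
          hmem (Submodule.mem_span_singleton.2 ⟨t, ht⟩)
        obtain ⟨u, hu, hu0⟩ := hpl (Submodule.span F {d, a})
          (by rw [← Matrix.range_cons_cons_empty d a ![], finrank_span_eq_card hli, Fintype.card_fin])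
        obtain ⟨s, t, rfl⟩ := Submodule.mem_span_pair.1 hu
        apply hu0
        rw [map_add_smul, QuadraticMap.map_smul, ha, hd, polar_smul_left, polar_comm Q d a, had]
        simp
      rw [h1]; exact one_mem _
    · exact siegel_mem_reflGroup_of_ne hd had ha
  refine le_antisymm (reflGroup_le_isom Q) fun g hg => ?_
  obtain ⟨g', hg', e⟩ := witt_aux hQ (reflGroup Q) (reflGroup_le_isom Q)
    (fun u hu => Subgroup.subset_closure ⟨u, hu, rfl⟩)
    (fun _ _ hd had => hsiegel _ _ hd had)
    (fun _ _ hd hf hdf _ hc => scale_mem_reflGroup hd hf hdf hc) _ ⊤ rfl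
    (g.toLinearMap.comp (Submodule.subtype ⊤)) (g.injective.comp Subtype.val_injective)
    (fun x => hg _)
  have : g' = g := LinearEquiv.ext fun v => e ⟨v, trivial⟩
  exact this ▸ hg'

variable (h2 : (2 : F) = 0) (hQ : (polarBilin Q).Nondegenerate) (hgen : reflGroup Q = isom Q)

include hgen in
theorem exists_listGL_gen (g : Cfsg.isometryGroup F ⇑Q) : ∃ l, g = listGL Q l := by
  obtain ⟨l, hl⟩ := exists_reflProd (Q := Q) (g := ((isoEquiv Q g : isom Q) : (ι → F) ≃ₗ[F] (ι → F)))
    (by rw [hgen]; exact (isoEquiv Q g).2)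
  refine ⟨l, (isoEquiv Q).injective ?_⟩
  rw [isoEquiv_listGL]
  exact Subtype.ext hl

include hQ in
/-- The rank of `g - 1` has the parity of the length. -/
theorem rank_parity (l : List {u : ι → F // Q u ≠ 0}) :
    ((listGL Q l : GL ι F).1 - 1).rank % 2 = l.length % 2 := by
  have hpar := finrank_fixed_parity hQ l
  set f := Matrix.toLin' ((listGL Q l : GL ι F).1 - 1) with hf
  have hfl : f = (reflProd Q l : (ι → F) →ₗ[F] (ι → F)) - LinearMap.id := LinearMap.ext fun v => by
    rw [hf, Matrix.toLin'_apply, sub_mulVec, one_mulVec, LinearMap.sub_apply, LinearMap.id_apply,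
      LinearEquiv.coe_coe, ← glEquiv_apply, ← coe_isoEquiv, isoEquiv_listGL]
  have hrk := LinearMap.finrank_range_add_finrank_ker f
  have hrank : ((listGL Q l : GL ι F).1 - 1).rank = Module.finrank F (LinearMap.range f) := by
    rw [hf, Matrix.toLin'_apply']; rfl
  rw [← hfl] at hpar
  omega

include h2 hQ hgen

theorem mem_Omega_iff_rank (t : Cfsg.isometryGroup F ⇑Q) :
    t ∈ Cfsg.Omega F ⇑Q ↔ Even ((t : GL ι F).1 - 1).rank := by
  constructor
  · intro ht
    let φ : Cfsg.isometryGroup F ⇑Q →* Multiplicative (ZMod 2) :=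
      { toFun := fun g => Multiplicative.ofAdd (((g : GL ι F).1 - 1).rank : ZMod 2)
        map_one' := by simp
        map_mul' := fun a b => by
          obtain ⟨la, rfl⟩ := exists_listGL_gen hgen a
          obtain ⟨lb, rfl⟩ := exists_listGL_gen hgen b
          rw [← listGL_append, ← ofAdd_add, ← Nat.cast_add]
          congr 1
          rw [ZMod.natCast_eq_natCast_iff']
          rw [Nat.add_mod, rank_parity hQ, rank_parity hQ, rank_parity hQ, ← Nat.add_mod, List.length_append] }
    have hcm : Cfsg.Omega F ⇑Q ≤ φ.ker := by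
      intro g hg
      have h1 := (Forms.mem_Omega_iff Q g).1 hg
      have h3 := Abelianization.commutator_subset_ker (φ.comp (isoEquiv Q).symm.toMonoidHom) h1
      rw [MonoidHom.mem_ker] at h3 ⊢
      simpa using h3
    have := hcm ht
    rw [MonoidHom.mem_ker] at this
    simp only [φ, MonoidHom.coe_mk, OneHom.coe_mk, ofAdd_eq_one, ZMod.natCast_eq_zero_iff_even] at this
    exact this
  · intro he
    obtain ⟨l, rfl⟩ := exists_listGL_gen hgen t
    rw [Forms.mem_Omega_iff, isoEquiv_listGL]
    refine reflProd_mem_commutator hQ l ?_ ?_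
    · rw [Nat.even_iff, ← rank_parity hQ l, ← Nat.even_iff]; exact he
    · obtain ⟨b, hb⟩ := exists_sq h2 (valueProd Q l)
      exact ⟨b, hb.symm⟩

theorem mem_iff_even (l : List {u : ι → F // Q u ≠ 0}) : listGL Q l ∈ Cfsg.Omega F ⇑Q ↔ Even l.length := by
  rw [mem_Omega_iff_rank h2 hQ hgen, Nat.even_iff, Nat.even_iff, rank_parity hQ]

end CfsgLib.InvTwo
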