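import Cfsg.Agent.Forms.RankParity
import Cfsg.Agent.InvTwo.Gen
import Cfsg.Agent.Forms.OddNormal
import Cfsg.Agent.AutPE.Two
set_option autoImplicit false
set_option quotPrecheck false
set_option linter.unusedSectionVars false

/-!
Splitting of involution classes of the orthogonal groups in characteristic two.
-/

namespace CfsgLib.InvTwo

open QuadraticMap Matrix
open CfsgLib.Forms

variable {F : Type*} [Field F] [Finite F] {ι : Type} [Fintype ι] [DecidableEq ι] {Q : QuadraticForm F (ι → F)}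

local notation "V" => (ι → F)

/-- The linear map `t - 1`. -/
noncomputable def nil (t : Cfsg.isometryGroup F ⇑Q) : V →ₗ[F] V := Matrix.toLin' ((t : GL ι F).1 - 1)

theorem nil_apply (t : Cfsg.isometryGroup F ⇑Q) (v : V) : nil t v = (t : GL ι F).1 *ᵥ v - v := by
  rw [nil, Matrix.toLin'_apply, sub_mulVec, one_mulVec]

theorem polar_iso (t : Cfsg.isometryGroup F ⇑Q) (u v : V) :
    polar Q ((t : GL ι F).1 *ᵥ u) ((t : GL ι F).1 *ᵥ v) = polar Q u v := by
  simp only [polar, ← mulVec_add, mem_isometryGroup.1 t.2]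

theorem ker_nil (hQ : (polarBilin Q).Nondegenerate) (t : Cfsg.isometryGroup F ⇑Q) :
    LinearMap.ker (nil t) = perp Q (LinearMap.range (nil t)) := by
  ext x
  rw [LinearMap.mem_ker, mem_perp, nil_apply, sub_eq_zero]
  constructor
  · rintro hx _ ⟨v, rfl⟩
    rw [nil_apply, polar_sub_right]
    nth_rewrite 1 [← hx]
    rw [polar_iso, sub_self]
  · intro hx
    refine sub_eq_zero.1 (polar_ext hQ fun y => ?_)
    obtain ⟨v, rfl⟩ : ∃ v, (t : GL ι F).1 *ᵥ v = y :=
      ⟨((t : GL ι F)⁻¹).1 *ᵥ y, by rw [mulVec_mulVec, Units.mul_inv, one_mulVec]⟩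
    rw [polar_sub_left, polar_iso]
    have h1 := hx _ ⟨v, rfl⟩
    rw [nil_apply, polar_sub_right] at h1
    linear_combination -h1

theorem nil_nil (h2 : (2 : F) = 0) (t : Cfsg.isometryGroup F ⇑Q) (ht : t * t = 1) (v : V) :
    nil t (nil t v) = 0 := by
  have h1 : (t : GL ι F).1 *ᵥ ((t : GL ι F).1 *ᵥ v) = v := by
    rw [mulVec_mulVec, ← Units.val_mul, ← Subgroup.coe_mul, ht, OneMemClass.coe_one, Units.val_one, one_mulVec]
  rw [nil_apply, nil_apply, mulVec_sub, h1]
  funext i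
  simp only [Pi.sub_apply, Pi.zero_apply]
  linear_combination (v i - ((t : GL ι F).1 *ᵥ v) i) * h2

theorem finrank_nil_le (h2 : (2 : F) = 0) (hQ : (polarBilin Q).Nondegenerate) (t : Cfsg.isometryGroup F ⇑Q)
    (ht : t * t = 1) :
    2 * Module.finrank F (LinearMap.range (nil t)) ≤ Fintype.card ι := by
  have h := LinearMap.finrank_range_add_finrank_ker (nil t)
  rw [Module.finrank_fintype_fun_eq_card] at h
  have h1 := Submodule.finrank_mono (show LinearMap.range (nil t) ≤ LinearMap.ker (nil t) by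
    rintro _ ⟨v, rfl⟩; exact LinearMap.mem_ker.2 (nil_nil h2 t ht v))
  omega

theorem rank_eq (t : Cfsg.isometryGroup F ⇑Q) :
    ((t : GL ι F).1 - 1).rank = Module.finrank F (LinearMap.range (nil t)) := by
  rw [nil, Matrix.toLin'_apply']; rfl

theorem range_conj {g t s : Cfsg.isometryGroup F ⇑Q} (h : g * t * g⁻¹ = s) :
    (LinearMap.range (nil t)).map (Matrix.mulVecLin (g : GL ι F).1) = LinearMap.range (nil s) := by
  have hgs : ∀ v, nil s ((g : GL ι F).1 *ᵥ v) = (g : GL ι F).1 *ᵥ nil t v := fun v => by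
    have e : (s : GL ι F).1 *ᵥ ((g : GL ι F).1 *ᵥ v) = (g : GL ι F).1 *ᵥ ((t : GL ι F).1 *ᵥ v) := by
      rw [mulVec_mulVec, mulVec_mulVec, ← Units.val_mul, ← Units.val_mul, ← Subgroup.coe_mul, ← Subgroup.coe_mul,
        ← h, inv_mul_cancel_right]
    rw [nil_apply, nil_apply, e, mulVec_sub]
  ext x
  constructor
  · rintro ⟨_, ⟨v, rfl⟩, rfl⟩
    exact ⟨_, hgs v⟩
  · rintro ⟨v, rfl⟩
    obtain ⟨w, rfl⟩ : ∃ w, (g : GL ι F).1 *ᵥ w = v :=
      ⟨((g : GL ι F)⁻¹).1 *ᵥ v, by rw [mulVec_mulVec, Units.mul_inv, one_mulVec]⟩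
    exact ⟨_, ⟨w, rfl⟩, (hgs w).symm⟩

variable (h2 : (2 : F) = 0) (hQ : (polarBilin Q).Nondegenerate) (hgen : reflGroup Q = isom Q)
include h2 hQ hgen

/-- A fixed non-singular vector prevents splitting. -/
theorem conj_in_Omega {t s : Cfsg.isometryGroup F ⇑Q} (hconj : IsConj t s) {u : V}
    (hu : (t : GL ι F).1 *ᵥ u = u) (hu0 : Q u ≠ 0) : ∃ g ∈ Cfsg.Omega F ⇑Q, g * t * g⁻¹ = s := by
  obtain ⟨g, hg⟩ := isConj_iff.1 hconj
  obtain ⟨l, rfl⟩ := exists_listGL_gen hgen g
  rcases Nat.even_or_odd l.length with he | ho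
  · exact ⟨_, (mem_iff_even h2 hQ hgen l).2 he, hg⟩
  · refine ⟨listGL Q (l ++ [⟨u, hu0⟩]), (mem_iff_even h2 hQ hgen _).2 (by
      rw [List.length_append]; exact ho.add_odd odd_one), ?_⟩
    have hr : ∀ v : V, (listGL Q [⟨u, hu0⟩] : GL ι F).1 *ᵥ v = v - ((Q u)⁻¹ * polar Q v u) • u := fun v => by
      rw [← glEquiv_apply, ← coe_isoEquiv, isoEquiv_listGL]
      exact Forms.refl_apply hu0 v
    have hc : listGL Q [⟨u, hu0⟩] * t = t * listGL Q [⟨u, hu0⟩] := by
      refine Subtype.ext (Units.ext (Matrix.ext_iff_mulVec.2 fun v => ?_))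
      rw [Subgroup.coe_mul, Subgroup.coe_mul, Units.val_mul, Units.val_mul, ← mulVec_mulVec, ← mulVec_mulVec, hr,
        hr, mulVec_sub, mulVec_smul, hu]
      have hp : polar Q ((t : GL ι F).1 *ᵥ v) u = polar Q v u := by
        conv_lhs => rw [← hu]
        rw [polar_iso]
      rw [hp]
    rw [listGL_append, _root_.mul_inv_rev, mul_assoc (listGL Q l) (listGL Q [⟨u, hu0⟩]), hc, ← hg]
    group

/-- The two classes in the alternating case of maximal rank. -/
theorem conj_in_Omega_iff {t s : Cfsg.isometryGroup F ⇑Q} (hconj : IsConj t s)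
    (hW : IsMaxSingular Q (LinearMap.range (nil t))) (hev : Even (Module.finrank F (LinearMap.range (nil t)))) :
    (∃ g ∈ Cfsg.Omega F ⇑Q, g * t * g⁻¹ = s) ↔
      Even (Module.finrank F ↥(LinearMap.range (nil t) ⊓ LinearMap.range (nil s))) := by
  have key : ∀ (l : List {u : V // Q u ≠ 0}), listGL Q l * t * (listGL Q l)⁻¹ = s →
      (Even l.length ↔ Even (Module.finrank F ↥(LinearMap.range (nil t) ⊓ LinearMap.range (nil s)))) := by
    intro l hl
    have h1 := finrank_inf_map_reflProd hQ hW l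
    have hm := range_conj hl
    rw [mulVecLin_eq, isoEquiv_listGL] at hm
    rw [hm] at h1
    rw [Nat.even_iff, Nat.even_iff]
    rw [Nat.even_iff] at hev
    omega
  constructor
  · rintro ⟨g, hg, e⟩
    obtain ⟨l, rfl⟩ := exists_listGL_gen hgen g
    exact (key l e).1 ((mem_iff_even h2 hQ hgen l).1 hg)
  · intro he
    obtain ⟨g, hg⟩ := isConj_iff.1 hconj
    obtain ⟨l, rfl⟩ := exists_listGL_gen hgen g
    exact ⟨_, (mem_iff_even h2 hQ hgen l).2 ((key l hg).2 he), hg⟩

omit hgen in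
theorem fixed_or_singular {t : Cfsg.isometryGroup F ⇑Q} :
    (∃ u, (t : GL ι F).1 *ᵥ u = u ∧ Q u ≠ 0) ∨ ∀ v ∈ LinearMap.ker (nil t), Q v = 0 := by
  by_cases h : ∀ v ∈ LinearMap.ker (nil t), Q v = 0
  · exact .inr h
  · push_neg at h
    obtain ⟨u, hu, hu0⟩ := h
    rw [LinearMap.mem_ker, nil_apply, sub_eq_zero] at hu
    exact .inl ⟨u, hu, hu0⟩

omit hgen in
theorem finrank_ker_ge (t : Cfsg.isometryGroup F ⇑Q) (ht : t * t = 1) :
    Fintype.card ι ≤ 2 * Module.finrank F (LinearMap.ker (nil t)) := by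
  have h := finrank_nil_le h2 hQ t ht
  have h1 := LinearMap.finrank_range_add_finrank_ker (nil t)
  rw [Module.finrank_fintype_fun_eq_card] at h1
  omega

omit hgen in
/-- If the fixed space is singular then `t - 1` has half rank and `Q (v + t v) = 0`. -/
theorem of_singular (t : Cfsg.isometryGroup F ⇑Q) (ht : t * t = 1)
    (h : ∀ v ∈ LinearMap.ker (nil t), Q v = 0) :
    2 * Module.finrank F (LinearMap.range (nil t)) = Fintype.card ι ∧ ∀ v, Q (v + (t : GL ι F).1 *ᵥ v) = 0 := by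
  have h1 := LinearMap.finrank_range_add_finrank_ker (nil t)
  rw [Module.finrank_fintype_fun_eq_card] at h1
  have h3 := finrank_nil_le h2 hQ t ht
  have h4 := finrank_ker_ge h2 hQ t ht
  have h5 := two_finrank_le_of_singular hQ h
  rw [Module.finrank_fintype_fun_eq_card] at h5
  refine ⟨by omega, fun v => ?_⟩
  have : v + (t : GL ι F).1 *ᵥ v = nil t v := by
    rw [nil_apply]
    funext i
    simp only [Pi.add_apply, Pi.sub_apply]
    linear_combination v i * h2
  rw [this]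
  exact h _ (LinearMap.mem_ker.2 (nil_nil h2 t ht v))

omit hgen in
theorem isMax_range (t : Cfsg.isometryGroup F ⇑Q) (hr : 2 * Module.finrank F (LinearMap.range (nil t)) = Fintype.card ι)
    (hv : ∀ v, Q (v + (t : GL ι F).1 *ᵥ v) = 0) : IsMaxSingular Q (LinearMap.range (nil t)) := by
  refine ⟨by rw [Module.finrank_fintype_fun_eq_card, hr], ?_⟩
  rintro _ ⟨v, rfl⟩
  have : v + (t : GL ι F).1 *ᵥ v = nil t v := by
    rw [nil_apply]
    funext i
    simp only [Pi.add_apply, Pi.sub_apply]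
    linear_combination v i * h2
  rw [← this]; exact hv v

/-- In the splitting case the centraliser lies in `Ω`. -/
theorem mem_Omega_of_comm {t g : Cfsg.isometryGroup F ⇑Q} (hg : g * t * g⁻¹ = t)
    (hW : IsMaxSingular Q (LinearMap.range (nil t))) (hev : Even (Module.finrank F (LinearMap.range (nil t)))) :
    g ∈ Cfsg.Omega F ⇑Q := by
  obtain ⟨l, rfl⟩ := exists_listGL_gen hgen g
  rw [mem_iff_even h2 hQ hgen]
  have h1 := finrank_inf_map_reflProd hQ hW l
  have hm := range_conj hg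
  rw [mulVecLin_eq, isoEquiv_listGL] at hm
  rw [hm, inf_idem] at h1
  rw [Nat.even_iff] at hev ⊢
  omega

end CfsgLib.InvTwo
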