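import Cfsg.Agent.InvTwo.Normalize
import Cfsg.Agent.InvTwo.Split

/-!
Matrix involutions and their invariants.
-/

set_option autoImplicit false
set_option linter.unusedSectionVars false

namespace CfsgLib.InvTwo

open QuadraticMap Matrix
open CfsgLib.Forms

variable {F : Type*} [Field F] [Finite F] {ι : Type} [Fintype ι] [DecidableEq ι]

/-- The map `A - 1`. -/
noncomputable def nilM (A : Matrix ι ι F) : (ι → F) →ₗ[F] (ι → F) := Matrix.toLin' (A - 1)

theorem nilM_apply (A : Matrix ι ι F) (v : ι → F) : nilM A v = A *ᵥ v - v := by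
  rw [nilM, Matrix.toLin'_apply, sub_mulVec, one_mulVec]

theorem rank_nilM (A : Matrix ι ι F) : (A - 1).rank = Module.finrank F (LinearMap.range (nilM A)) := by
  rw [nilM, Matrix.toLin'_apply']; rfl

theorem selfAdj_nilM {f : (ι → F) →ₗ[F] (ι → F) →ₗ[F] F} (h2 : (2 : F) = 0) (halt : ∀ v, f v v = 0)
    (hinj : Function.Injective f) {A : Matrix ι ι F} (hA : A * A = 1)
    (hf : ∀ u v, f (A *ᵥ u) (A *ᵥ v) = f u v) : SelfAdj f (nilM A) := by
  have h1 : ∀ v, A *ᵥ (A *ᵥ v) = v := fun v => by rw [mulVec_mulVec, hA, one_mulVec]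
  refine ⟨h2, halt, hinj, fun v => ?_, fun u v => ?_⟩
  · rw [nilM_apply, nilM_apply, mulVec_sub, h1]
    funext i
    simp only [Pi.sub_apply, Pi.zero_apply]
    linear_combination (v i - (A *ᵥ v) i) * h2
  · have : f (A *ᵥ u) v = f u (A *ᵥ v) := by rw [← hf (A *ᵥ u) v, h1]
    simp only [nilM_apply, map_sub, LinearMap.sub_apply, this]

/-- Conjugation by a map intertwining the nilpotent parts. -/
theorem toMatrix'_mul_eq {A B : Matrix ι ι F} {g : (ι → F) ≃ₗ[F] (ι → F)}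
    (h : ∀ x, g (nilM A x) = nilM B (g x)) :
    LinearMap.toMatrix' (g : (ι → F) →ₗ[F] (ι → F)) * A = B * LinearMap.toMatrix' (g : (ι → F) →ₗ[F] (ι → F)) := by
  refine Matrix.ext_iff_mulVec.2 fun v => ?_
  rw [← mulVec_mulVec, ← mulVec_mulVec, LinearMap.toMatrix'_mulVec, LinearMap.toMatrix'_mulVec, LinearEquiv.coe_coe]
  have := h v
  rw [nilM_apply, nilM_apply, map_sub] at this
  exact sub_left_inj.1 this

/-- The invariants only depend on the conjugacy class. -/
theorem inv_of_conj {f : (ι → F) →ₗ[F] (ι → F) →ₗ[F] F} {A B G : Matrix ι ι F} (hG : IsUnit G.det)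
    (hf : ∀ u v, f (G *ᵥ u) (G *ᵥ v) = f u v) (h : G * A = B * G) :
    (A - 1).rank = (B - 1).rank ∧ (IsAltN f (nilM A) ↔ IsAltN f (nilM B)) := by
  have h1 : G * (A - 1) = (B - 1) * G := by rw [mul_sub, sub_mul, h, mul_one, one_mul]
  refine ⟨?_, ?_⟩
  · rw [← Matrix.rank_mul_eq_right_of_isUnit_det G (A - 1) hG, h1, Matrix.rank_mul_eq_left_of_isUnit_det G (B - 1) hG]
  · have e : ∀ v, f (G *ᵥ v) (nilM B (G *ᵥ v)) = f v (nilM A v) := fun v => by
      rw [nilM, nilM, Matrix.toLin'_apply, Matrix.toLin'_apply, mulVec_mulVec, ← h1, ← mulVec_mulVec, hf]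
    constructor
    · intro ha w
      obtain ⟨v, rfl⟩ : ∃ v, G *ᵥ v = w := ⟨G⁻¹ *ᵥ w, by rw [mulVec_mulVec, Matrix.mul_nonsing_inv _ hG, one_mulVec]⟩
      rw [e]; exact ha v
    · intro hb v
      rw [← e]; exact hb _

theorem even_of_alt {f : (ι → F) →ₗ[F] (ι → F) →ₗ[F] F} {A : Matrix ι ι F} (hN : SelfAdj f (nilM A))
    (ha : IsAltN f (nilM A)) : Even (A - 1).rank := by
  obtain ⟨r, u, hu⟩ := exists_frame_alt hN ha
  exact ⟨r, by rw [rank_nilM, finrank_range hN hu]; simp⟩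

variable {Q : QuadraticForm F (ι → F)}

theorem polarBilin_inj (hQ : (polarBilin Q).Nondegenerate) : Function.Injective (polarBilin Q) := fun x y h =>
  sub_eq_zero.1 (hQ.1 (x - y) fun z => by rw [map_sub, h, sub_self, LinearMap.zero_apply])

theorem polar_self_zero (h2 : (2 : F) = 0) (v : ι → F) : polarBilin Q v v = 0 := by
  rw [polarBilin_apply_apply, polar_self, two_nsmul]
  linear_combination Q v * h2

theorem selfAdj_iso (h2 : (2 : F) = 0) (hQ : (polarBilin Q).Nondegenerate) {t : Cfsg.isometryGroup F ⇑Q}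
    (ht : t * t = 1) : SelfAdj (polarBilin Q) (nilM (t : GL ι F).1) := by
  refine selfAdj_nilM h2 (polar_self_zero h2) (polarBilin_inj hQ) ?_ fun u v => ?_
  · rw [← Units.val_mul, ← Subgroup.coe_mul, ht]; rfl
  · rw [polarBilin_apply_apply, polarBilin_apply_apply, polar_iso]

theorem Q_nilM (h2 : (2 : F) = 0) (t : Cfsg.isometryGroup F ⇑Q) (v : ι → F) :
    Q (nilM (t : GL ι F).1 v) = polarBilin Q v (nilM (t : GL ι F).1 v) := by
  have e : Q ((t : GL ι F).1 *ᵥ v) = Q v := mem_isometryGroup.1 t.2 v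
  rw [nilM_apply, map_sub (polarBilin Q v), polar_self_zero h2, sub_zero, polarBilin_apply_apply, Forms.map_sub', e,
    polar_comm Q v]
  linear_combination (Q v - polar Q ((t : GL ι F).1 *ᵥ v) v) * h2

/-- Conjugacy of involutions of the orthogonal group. -/
theorem isConj_iff_inv (h2 : (2 : F) = 0) (hQ : (polarBilin Q).Nondegenerate) {t s : Cfsg.isometryGroup F ⇑Q}
    (ht : t * t = 1) (hs : s * s = 1) :
    IsConj t s ↔ ((t : GL ι F).1 - 1).rank = ((s : GL ι F).1 - 1).rank ∧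
      (IsAltN (polarBilin Q) (nilM (t : GL ι F).1) ↔ IsAltN (polarBilin Q) (nilM (s : GL ι F).1)) := by
  constructor
  · intro h
    obtain ⟨g, hg⟩ := isConj_iff.1 h
    refine inv_of_conj (G := (g : GL ι F).1) (Matrix.isUnit_iff_isUnit_det _ |>.1 (g : GL ι F).isUnit)
      (fun u v => by rw [polarBilin_apply_apply, polarBilin_apply_apply, polar_iso]) ?_
    rw [← Units.val_mul, ← Units.val_mul, ← Subgroup.coe_mul, ← Subgroup.coe_mul, ← hg, inv_mul_cancel_right]
  · rintro ⟨hr, ha⟩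
    rw [rank_nilM, rank_nilM] at hr
    obtain ⟨g, hg, hgN⟩ := exists_conj_orth_of_inv (fun x y => (polarBilin_apply_apply Q x y).symm)
      (Q_nilM h2 t) (Q_nilM h2 s) (selfAdj_iso h2 hQ ht) (selfAdj_iso h2 hQ hs) hr ha
    refine isConj_iff.2 ⟨(isoEquiv Q).symm ⟨g, hg⟩, ?_⟩
    rw [mul_inv_eq_iff_eq_mul]
    refine Subtype.ext (Units.ext (Matrix.ext_iff_mulVec.2 fun v => ?_))
    rw [Subgroup.coe_mul, Subgroup.coe_mul, Units.val_mul, Units.val_mul, ← mulVec_mulVec, ← mulVec_mulVec,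
      ← glEquiv_apply, ← glEquiv_apply (((isoEquiv Q).symm ⟨g, hg⟩ : Cfsg.isometryGroup F ⇑Q) : GL ι F) v,
      ← coe_isoEquiv, MulEquiv.apply_symm_apply]
    have := hgN v
    rw [nilM_apply, nilM_apply, map_sub] at this
    exact sub_left_inj.1 this

/-- Conjugacy in the group of the polar form gives conjugacy in the orthogonal group. -/
theorem isConj_iff_polar_conj (h2 : (2 : F) = 0) (hQ : (polarBilin Q).Nondegenerate) {t s : Cfsg.isometryGroup F ⇑Q}
    (ht : t * t = 1) (hs : s * s = 1) :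
    IsConj t s ↔ ∃ g ∈ Cfsg.preserving (Units.coeHom (Matrix ι ι F)) (fun u v => Q (u + v) - Q u - Q v),
      g * (t : GL ι F) * g⁻¹ = (s : GL ι F) := by
  constructor
  · intro h
    obtain ⟨g, hg⟩ := isConj_iff.1 h
    refine ⟨(g : GL ι F), fun u v => polar_iso g u v, ?_⟩
    rw [← hg, Subgroup.coe_mul, Subgroup.coe_mul, Subgroup.coe_inv]
  · rintro ⟨g, hg, e⟩
    refine (isConj_iff_inv h2 hQ ht hs).2 (inv_of_conj (G := g.1) (Matrix.isUnit_iff_isUnit_det _ |>.1 g.isUnit)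
      (fun u v => ?_) ?_)
    · exact hg u v
    · rw [← Units.val_mul, ← Units.val_mul, ← e, inv_mul_cancel_right]

theorem mul_self_of_orderOf {G : Type*} [Monoid G] {t : G} (ht : orderOf t = 2) : t * t = 1 := by
  rw [← pow_two, ← ht, pow_orderOf_eq_one]

end CfsgLib.InvTwo
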