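import Mathlib

/-!
Counting classes of involutions through invariants.
-/

set_option autoImplicit false

namespace CfsgLib.InvTwo

variable {G : Type*} [Group G]

theorem card_classes_of_reps {I : Type*} [Fintype I] (rep : I → G) (hrep : ∀ i, orderOf (rep i) = 2)
    (hinj : ∀ i j, IsConj (rep i) (rep j) → i = j) (hall : ∀ g, orderOf g = 2 → ∃ i, IsConj (rep i) g) :
    Nat.card {C : ConjClasses G // ∃ g : G, ConjClasses.mk g = C ∧ orderOf g = 2} = Fintype.card I := by
  rw [← Nat.card_eq_fintype_card]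
  refine (Nat.card_eq_of_bijective (fun i => ⟨ConjClasses.mk (rep i), rep i, rfl, hrep i⟩) ⟨fun i j h => ?_, ?_⟩).symm
  · exact hinj i j (ConjClasses.mk_eq_mk_iff_isConj.1 (congrArg Subtype.val h))
  · rintro ⟨C, g, rfl, hg⟩
    obtain ⟨i, hi⟩ := hall g hg
    exact ⟨i, Subtype.ext (ConjClasses.mk_eq_mk_iff_isConj.2 hi)⟩

theorem card_classes_of_inv {I β : Type*} [Fintype I] (inv : G → β) (e : I → β) (he : Function.Injective e)
    (hconj : ∀ g h, orderOf g = 2 → orderOf h = 2 → (IsConj g h ↔ inv g = inv h))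
    (himg : ∀ g, orderOf g = 2 → ∃ i, inv g = e i) (hex : ∀ i, ∃ g, orderOf g = 2 ∧ inv g = e i) :
    Nat.card {C : ConjClasses G // ∃ g : G, ConjClasses.mk g = C ∧ orderOf g = 2} = Fintype.card I := by
  choose rep hrep hinv using hex
  refine card_classes_of_reps rep hrep (fun i j h => he ?_) fun g hg => ?_
  · rw [← hinv i, ← hinv j]; exact (hconj _ _ (hrep i) (hrep j)).1 h
  · obtain ⟨i, hi⟩ := himg g hg
    exact ⟨i, (hconj _ _ (hrep i) hg).2 (by rw [hinv, hi])⟩

end CfsgLib.InvTwo
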