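import Cfsg.Agent.InvTwo.Bridge
import Cfsg.Agent.InvTwo.Count

/-!
Numbers of classes of involutions.
-/

set_option autoImplicit false
set_option linter.unusedSectionVars false

namespace CfsgLib.InvTwo

open QuadraticMap Matrix
open CfsgLib.Forms

variable {F : Type*} [Field F] [Finite F] {ι : Type} [Fintype ι] [DecidableEq ι]

/-- The labels of the classes: odd and even ranks, and the alternating ones. -/
def label (step : ℕ) {p a : ℕ} : Fin p ⊕ Fin a → ℕ × Prop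
  | .inl i => (step * (i.1 + 1), False)
  | .inr j => ((j.1 + 1) + (j.1 + 1), True)

theorem label_injective {step p a : ℕ} (hs : 1 ≤ step) : Function.Injective (label step (p := p) (a := a)) := by
  rintro (i | i) (j | j) h
  · simp only [label, Prod.mk.injEq, and_true] at h
    exact congrArg Sum.inl (Fin.ext (by have := Nat.eq_of_mul_eq_mul_left (by omega) h; omega))
  · exact absurd (cast (congrArg Prod.snd h).symm trivial) id
  · exact absurd (cast (congrArg Prod.snd h) trivial) id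
  · simp only [label, Prod.mk.injEq, and_true] at h
    exact congrArg Sum.inr (Fin.ext (by omega))

theorem rank_ne_zero {A : Matrix ι ι F} (hA : A ≠ 1) : (A - 1).rank ≠ 0 := fun h => by
  refine hA (sub_eq_zero.1 ?_)
  rw [rank_nilM, Submodule.finrank_eq_zero, LinearMap.range_eq_bot, nilM,
    map_eq_zero_iff _ Matrix.toLin'.injective] at h
  exact h

theorem two_rank_le {f : (ι → F) →ₗ[F] (ι → F) →ₗ[F] F} {A : Matrix ι ι F} (hN : SelfAdj f (nilM A)) :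
    2 * (A - 1).rank ≤ Fintype.card ι := by
  rw [rank_nilM]
  have h := LinearMap.finrank_range_add_finrank_ker (nilM A)
  rw [Module.finrank_fintype_fun_eq_card] at h
  have h1 := Submodule.finrank_mono (show LinearMap.range (nilM A) ≤ LinearMap.ker (nilM A) by
    rintro _ ⟨v, rfl⟩; exact LinearMap.mem_ker.2 (hN.sq v))
  omega

variable {Q : QuadraticForm F (ι → F)}

theorem iso_ne_one {t : Cfsg.isometryGroup F ⇑Q} (ht : t ≠ 1) : (t : GL ι F).1 ≠ 1 := fun h =>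
  ht (Subtype.ext (Units.ext h))

theorem orderOf_two_of {t : Cfsg.isometryGroup F ⇑Q} (ht : t * t = 1) (hr : ((t : GL ι F).1 - 1).rank ≠ 0) :
    orderOf t = 2 := by
  refine orderOf_eq_prime (by rw [pow_two]; exact ht) fun h => hr ?_
  simp [h]

theorem ne_one_of_orderOf {G : Type*} [Monoid G] {t : G} (ht : orderOf t = 2) : t ≠ 1 := fun h => by
  rw [h, orderOf_one] at ht; omega

/-- The invariant. -/
noncomputable def inv₂ (Q : QuadraticForm F (ι → F)) (t : Cfsg.isometryGroup F ⇑Q) : ℕ × Prop :=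
  (((t : GL ι F).1 - 1).rank, IsAltN (polarBilin Q) (nilM (t : GL ι F).1))

theorem isConj_iff_inv₂ (h2 : (2 : F) = 0) (hQ : (polarBilin Q).Nondegenerate) {t s : Cfsg.isometryGroup F ⇑Q}
    (ht : t * t = 1) (hs : s * s = 1) : IsConj t s ↔ inv₂ Q t = inv₂ Q s := by
  rw [isConj_iff_inv h2 hQ ht hs, inv₂, inv₂, Prod.mk.injEq, eq_iff_iff]

theorem exists_label_O (h2 : (2 : F) = 0) (hQ : (polarBilin Q).Nondegenerate) {m a : ℕ}
    (hι : Fintype.card ι ≤ 2 * m)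
    (hno : ∀ t : Cfsg.isometryGroup F ⇑Q, IsAltN (polarBilin Q) (nilM (t : GL ι F).1) →
      ((t : GL ι F).1 - 1).rank ≤ m → ((t : GL ι F).1 - 1).rank ≤ 2 * a + 1)
    {t : Cfsg.isometryGroup F ⇑Q} (ht : orderOf t = 2) :
    ∃ i : Fin m ⊕ Fin a, inv₂ Q t = label 1 i := by
  have ht1 := rank_ne_zero (iso_ne_one (ne_one_of_orderOf ht))
  have hN := selfAdj_iso h2 hQ (mul_self_of_orderOf ht)
  have ht2 := two_rank_le hN
  by_cases h : IsAltN (polarBilin Q) (nilM (t : GL ι F).1)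
  · obtain ⟨j, hj⟩ := even_of_alt hN h
    have := hno t h (by omega)
    exact ⟨.inr ⟨j - 1, by omega⟩, Prod.ext (by show ((t : GL ι F).1 - 1).rank = j - 1 + 1 + (j - 1 + 1); omega) (eq_true h)⟩
  · exact ⟨.inl ⟨((t : GL ι F).1 - 1).rank - 1, by omega⟩,
      Prod.ext (by show ((t : GL ι F).1 - 1).rank = 1 * (((t : GL ι F).1 - 1).rank - 1 + 1); omega) (eq_false h)⟩

/-- Classes of involutions of the orthogonal group. -/
theorem card_classes_O (h2 : (2 : F) = 0) (hQ : (polarBilin Q).Nondegenerate) {m a : ℕ}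
    (hι : Fintype.card ι ≤ 2 * m)
    (hno : ∀ t : Cfsg.isometryGroup F ⇑Q, IsAltN (polarBilin Q) (nilM (t : GL ι F).1) →
      ((t : GL ι F).1 - 1).rank ≤ m → ((t : GL ι F).1 - 1).rank ≤ 2 * a + 1)
    (hna : ∀ s, 1 ≤ s → s ≤ m → ∃ t : Cfsg.isometryGroup F ⇑Q, t * t = 1 ∧ ((t : GL ι F).1 - 1).rank = s ∧
      ¬ IsAltN (polarBilin Q) (nilM (t : GL ι F).1))
    (hal : ∀ r, r ≤ a → ∃ t : Cfsg.isometryGroup F ⇑Q, t * t = 1 ∧ ((t : GL ι F).1 - 1).rank = r + r ∧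
      IsAltN (polarBilin Q) (nilM (t : GL ι F).1)) :
    Nat.card {C : ConjClasses (Cfsg.isometryGroup F ⇑Q) //
      ∃ g : Cfsg.isometryGroup F ⇑Q, ConjClasses.mk g = C ∧ orderOf g = 2} = m + a := by
  rw [card_classes_of_inv (inv₂ Q) (label 1 (p := m) (a := a)) (label_injective le_rfl)
    (fun g h hg hh => isConj_iff_inv₂ h2 hQ (mul_self_of_orderOf hg) (mul_self_of_orderOf hh))
    (fun g hg => exists_label_O h2 hQ hι hno hg) ?_]
  · simp
  rintro (i | j)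
  · obtain ⟨t, ht, hr, ha⟩ := hna (i.1 + 1) (by omega) (by omega)
    exact ⟨t, orderOf_two_of ht (by omega), Prod.ext (by show _ = 1 * (i.1 + 1); rw [one_mul]; exact hr) (eq_false ha)⟩
  · obtain ⟨t, ht, hr, ha⟩ := hal (j.1 + 1) (by omega)
    exact ⟨t, orderOf_two_of ht (by omega), Prod.ext hr (eq_true ha)⟩

variable (h2 : (2 : F) = 0) (hQ : (polarBilin Q).Nondegenerate) (hgen : reflGroup Q = isom Q)
include h2 hQ hgen

theorem exists_label_Omega {m a : ℕ} (hι : Fintype.card ι ≤ 2 * m)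
    (hno : ∀ t : Cfsg.isometryGroup F ⇑Q, IsAltN (polarBilin Q) (nilM (t : GL ι F).1) →
      ((t : GL ι F).1 - 1).rank ≤ m → ((t : GL ι F).1 - 1).rank ≤ 2 * a + 1)
    {t : Cfsg.Omega F ⇑Q} (ht : orderOf t = 2) :
    ∃ i : Fin (m / 2) ⊕ Fin a, inv₂ Q (t : Cfsg.isometryGroup F ⇑Q) = label 2 i := by
  have ht' : orderOf (t : Cfsg.isometryGroup F ⇑Q) = 2 := by rw [Subgroup.orderOf_coe]; exact ht
  have he := (mem_Omega_iff_rank h2 hQ hgen _).1 t.2
  obtain ⟨i, hi⟩ := exists_label_O h2 hQ hι hno ht'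
  rcases i with i | j
  · have hr : _ = 1 * (i.1 + 1) := congrArg Prod.fst hi
    simp only [inv₂] at hr
    obtain ⟨k, hk⟩ := he
    exact ⟨.inl ⟨k - 1, by omega⟩, hi.trans (Prod.ext (by show 1 * (i.1 + 1) = 2 * (k - 1 + 1); omega) rfl)⟩
  · exact ⟨.inr j, hi⟩

theorem exists_of_label_Omega {m a : ℕ}
    (hna : ∀ s, 1 ≤ s → s ≤ m → ∃ t : Cfsg.isometryGroup F ⇑Q, t * t = 1 ∧ ((t : GL ι F).1 - 1).rank = s ∧
      ¬ IsAltN (polarBilin Q) (nilM (t : GL ι F).1))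
    (hal : ∀ r, r ≤ a → ∃ t : Cfsg.isometryGroup F ⇑Q, t * t = 1 ∧ ((t : GL ι F).1 - 1).rank = r + r ∧
      IsAltN (polarBilin Q) (nilM (t : GL ι F).1))
    (i : Fin (m / 2) ⊕ Fin a) :
    ∃ g : Cfsg.Omega F ⇑Q, orderOf g = 2 ∧ inv₂ Q (g : Cfsg.isometryGroup F ⇑Q) = label 2 i := by
  rcases i with i | j
  · obtain ⟨t, ht, hr, ha⟩ := hna (2 * (i.1 + 1)) (by omega) (by omega)
    refine ⟨⟨t, (mem_Omega_iff_rank h2 hQ hgen t).2 (hr ▸ even_two_mul _)⟩, ?_, Prod.ext hr (eq_false ha)⟩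
    rw [← Subgroup.orderOf_coe]
    exact orderOf_two_of (t := t) ht (by omega)
  · obtain ⟨t, ht, hr, ha⟩ := hal (j.1 + 1) (by omega)
    refine ⟨⟨t, (mem_Omega_iff_rank h2 hQ hgen t).2 (hr ▸ ⟨_, rfl⟩)⟩, ?_, Prod.ext hr (eq_true ha)⟩
    rw [← Subgroup.orderOf_coe]
    exact orderOf_two_of (t := t) ht (by omega)

omit h2 hQ hgen in
theorem isConj_Omega {t s : Cfsg.Omega F ⇑Q} :
    IsConj t s ↔ ∃ g ∈ Cfsg.Omega F ⇑Q, g * (t : Cfsg.isometryGroup F ⇑Q) * g⁻¹ = s := by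
  rw [isConj_iff]
  exact ⟨fun ⟨g, hg⟩ => ⟨g, g.2, congrArg Subtype.val hg⟩, fun ⟨g, hg, e⟩ => ⟨⟨g, hg⟩, Subtype.ext e⟩⟩

/-- Classes of involutions of `Ω` when none splits. -/
theorem card_classes_Omega {m a : ℕ} (hι : Fintype.card ι ≤ 2 * m)
    (hno : ∀ t : Cfsg.isometryGroup F ⇑Q, IsAltN (polarBilin Q) (nilM (t : GL ι F).1) →
      ((t : GL ι F).1 - 1).rank ≤ m → ((t : GL ι F).1 - 1).rank ≤ 2 * a + 1)
    (hna : ∀ s, 1 ≤ s → s ≤ m → ∃ t : Cfsg.isometryGroup F ⇑Q, t * t = 1 ∧ ((t : GL ι F).1 - 1).rank = s ∧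
      ¬ IsAltN (polarBilin Q) (nilM (t : GL ι F).1))
    (hal : ∀ r, r ≤ a → ∃ t : Cfsg.isometryGroup F ⇑Q, t * t = 1 ∧ ((t : GL ι F).1 - 1).rank = r + r ∧
      IsAltN (polarBilin Q) (nilM (t : GL ι F).1))
    (hns : ∀ t : Cfsg.isometryGroup F ⇑Q, t * t = 1 → t ∈ Cfsg.Omega F ⇑Q →
      ∃ u, (t : GL ι F).1 *ᵥ u = u ∧ Q u ≠ 0) :
    Nat.card {C : ConjClasses (Cfsg.Omega F ⇑Q) //
      ∃ g : Cfsg.Omega F ⇑Q, ConjClasses.mk g = C ∧ orderOf g = 2} = m / 2 + a := by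
  rw [card_classes_of_inv (fun g : Cfsg.Omega F ⇑Q => inv₂ Q (g : Cfsg.isometryGroup F ⇑Q))
    (label 2 (p := m / 2) (a := a)) (label_injective (by omega)) (fun g h hg hh => ?_)
    (fun g hg => exists_label_Omega h2 hQ hgen hι hno hg) (exists_of_label_Omega h2 hQ hgen hna hal)]
  · simp
  have hg' : (g : Cfsg.isometryGroup F ⇑Q) * g = 1 := congrArg Subtype.val (mul_self_of_orderOf hg)
  have hh' : (h : Cfsg.isometryGroup F ⇑Q) * h = 1 := congrArg Subtype.val (mul_self_of_orderOf hh)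
  rw [← isConj_iff_inv₂ h2 hQ hg' hh', isConj_Omega]
  refine ⟨fun ⟨x, _, e⟩ => isConj_iff.2 ⟨x, e⟩, fun hc => ?_⟩
  obtain ⟨u, hu, hu0⟩ := hns _ hg' g.2
  exact conj_in_Omega h2 hQ hgen hc hu hu0

/-- Classes of involutions of `Ω` when one splits. -/
theorem card_classes_Omega_split {m : ℕ} (hι : Fintype.card ι = 2 * m) (hm : 1 ≤ m) (hev : Even m)
    (hna : ∀ s, 1 ≤ s → s ≤ m → ∃ t : Cfsg.isometryGroup F ⇑Q, t * t = 1 ∧ ((t : GL ι F).1 - 1).rank = s ∧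
      ¬ IsAltN (polarBilin Q) (nilM (t : GL ι F).1))
    (hal : ∀ r, r ≤ m / 2 → ∃ t : Cfsg.isometryGroup F ⇑Q, t * t = 1 ∧ ((t : GL ι F).1 - 1).rank = r + r ∧
      IsAltN (polarBilin Q) (nilM (t : GL ι F).1)) :
    Nat.card {C : ConjClasses (Cfsg.Omega F ⇑Q) //
      ∃ g : Cfsg.Omega F ⇑Q, ConjClasses.mk g = C ∧ orderOf g = 2} = m / 2 + m / 2 + 1 := by
  obtain ⟨m', hm'⟩ := hev
  obtain ⟨t₀, ht₀, hr₀, ha₀⟩ := hal m' (by omega)
  have hrm : ((t₀ : GL ι F).1 - 1).rank = m := by omega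
  have ht₀O : t₀ ∈ Cfsg.Omega F ⇑Q := (mem_Omega_iff_rank h2 hQ hgen t₀).2 (hr₀ ▸ ⟨_, rfl⟩)
  have hev₀ : Even (Module.finrank F (LinearMap.range (nil t₀))) := ⟨m', by rw [← rank_eq]; omega⟩
  have hW : IsMaxSingular Q (LinearMap.range (nil t₀)) := by
    refine ⟨by rw [← rank_eq, Module.finrank_fintype_fun_eq_card]; omega, ?_⟩
    rintro _ ⟨v, rfl⟩
    show Q (nilM (t₀ : GL ι F).1 v) = 0
    rw [Q_nilM h2]; exact ha₀ v
  let split : Cfsg.isometryGroup F ⇑Q → Prop := fun t => inv₂ Q t = (m, True) ∧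
    ¬ ∃ g ∈ Cfsg.Omega F ⇑Q, g * t₀ * g⁻¹ = t
  let e : (Fin (m / 2) ⊕ Fin (m / 2)) ⊕ Unit → (ℕ × Prop) × Prop :=
    Sum.elim (fun i => (label 2 i, False)) (fun _ => ((m, True), True))
  have he : Function.Injective e := by
    rintro (i | ⟨⟩) (j | ⟨⟩) h
    · exact congrArg Sum.inl (label_injective (by omega) (congrArg Prod.fst h))
    · exact absurd (cast (congrArg Prod.snd h).symm trivial) id
    · exact absurd (cast (congrArg Prod.snd h) trivial) id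
    · rfl
  refine (card_classes_of_inv (fun g : Cfsg.Omega F ⇑Q => (inv₂ Q (g : Cfsg.isometryGroup F ⇑Q),
    split (g : Cfsg.isometryGroup F ⇑Q))) e he (fun g h hg hh => ?_) (fun g hg => ?_) ?_).trans (by simp)
  · have hg' : (g : Cfsg.isometryGroup F ⇑Q) * g = 1 := congrArg Subtype.val (mul_self_of_orderOf hg)
    have hh' : (h : Cfsg.isometryGroup F ⇑Q) * h = 1 := congrArg Subtype.val (mul_self_of_orderOf hh)
    rw [Prod.mk.injEq, ← isConj_iff_inv₂ h2 hQ hg' hh', isConj_Omega]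
    constructor
    · rintro ⟨x, hx, ex⟩
      have hc : IsConj (g : Cfsg.isometryGroup F ⇑Q) h := isConj_iff.2 ⟨x, ex⟩
      refine ⟨hc, propext (and_congr (by rw [(isConj_iff_inv₂ h2 hQ hg' hh').1 hc]) (not_congr ⟨?_, ?_⟩))⟩
      · rintro ⟨y, hy, ey⟩
        exact ⟨x * y, mul_mem hx hy, by rw [← ex, ← ey]; group⟩
      · rintro ⟨y, hy, ey⟩
        refine ⟨x⁻¹ * y, mul_mem (inv_mem hx) hy, ?_⟩
        rw [← ex, mul_inv_eq_iff_eq_mul, eq_comm] at ey
        calc x⁻¹ * y * t₀ * (x⁻¹ * y)⁻¹ = x⁻¹ * (y * t₀) * y⁻¹ * x := by group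
          _ = x⁻¹ * (x * (g : Cfsg.isometryGroup F ⇑Q) * x⁻¹ * y) * y⁻¹ * x := by rw [ey]
          _ = g := by group
    · rintro ⟨hc, hs⟩
      rcases fixed_or_singular h2 hQ (t := (g : Cfsg.isometryGroup F ⇑Q)) with ⟨u, hu, hu0⟩ | hsing
      · exact conj_in_Omega h2 hQ hgen hc hu hu0
      obtain ⟨h1, h3⟩ := of_singular h2 hQ _ hg' hsing
      have hinv : inv₂ Q (g : Cfsg.isometryGroup F ⇑Q) = (m, True) := by
        refine Prod.ext (by show (((g : Cfsg.isometryGroup F ⇑Q) : GL ι F).1 - 1).rank = m; rw [rank_eq]; omega) (eq_true fun v => ?_)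
        rw [← Q_nilM h2, show nilM ((g : Cfsg.isometryGroup F ⇑Q) : GL ι F).1 = nil (g : Cfsg.isometryGroup F ⇑Q)
          from rfl]
        exact hsing _ (LinearMap.mem_ker.2 (nil_nil h2 _ hg' v))
      have hinv' := (isConj_iff_inv₂ h2 hQ hg' hh').1 hc ▸ hinv
      by_cases hG : ∃ x ∈ Cfsg.Omega F ⇑Q, x * t₀ * x⁻¹ = g
      · have hH : ∃ x ∈ Cfsg.Omega F ⇑Q, x * t₀ * x⁻¹ = h := by
          by_contra hh0
          exact (cast hs.symm ⟨hinv', hh0⟩ : split g).2 hG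
        obtain ⟨x, hx, ex⟩ := hG
        obtain ⟨y, hy, ey⟩ := hH
        exact ⟨y * x⁻¹, mul_mem hy (inv_mem hx), by rw [← ex, ← ey]; group⟩
      · have hH := (cast hs ⟨hinv, hG⟩ : split h).2
        obtain ⟨x, ex⟩ := isConj_iff.1 ((isConj_iff_inv₂ h2 hQ ht₀ hg').2
          (by rw [hinv]; exact Prod.ext hrm (eq_true ha₀)))
        obtain ⟨y, ey⟩ := isConj_iff.1 ((isConj_iff_inv₂ h2 hQ ht₀ hh').2
          (by rw [hinv']; exact Prod.ext hrm (eq_true ha₀)))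
        refine ⟨y * x⁻¹, ?_, by rw [← ex, ← ey]; group⟩
        obtain ⟨lx, rfl⟩ := exists_listGL_gen hgen x
        obtain ⟨ly, rfl⟩ := exists_listGL_gen hgen y
        have hxo : ¬ Even lx.length := fun hev' => hG ⟨_, (mem_iff_even h2 hQ hgen _).2 hev', ex⟩
        have hyo : ¬ Even ly.length := fun hev' => hH ⟨_, (mem_iff_even h2 hQ hgen _).2 hev', ey⟩
        have hinvl : (listGL Q lx)⁻¹ = listGL Q lx.reverse := by
          apply (isoEquiv Q).injective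
          rw [map_inv, isoEquiv_listGL, isoEquiv_listGL]
          exact Subtype.ext (exists_reflProd.reflProd_reverse lx).symm
        rw [hinvl, ← listGL_append, mem_iff_even h2 hQ hgen, List.length_append, List.length_reverse]
        exact (Nat.not_even_iff_odd.1 hyo).add_odd (Nat.not_even_iff_odd.1 hxo)
  · obtain ⟨i, hi⟩ := exists_label_Omega h2 hQ hgen (m := m) (a := m / 2) hι.le
      (fun t _ h => by omega) hg
    by_cases hs : split (g : Cfsg.isometryGroup F ⇑Q)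
    · exact ⟨.inr (), Prod.ext hs.1 (eq_true hs)⟩
    · exact ⟨.inl i, Prod.ext hi (eq_false hs)⟩
  · rintro (i | ⟨⟩)
    · by_cases hi : label 2 i = ((m, True) : ℕ × Prop)
      · refine ⟨⟨t₀, ht₀O⟩, ?_, Prod.ext ?_ (eq_false fun h => h.2 ⟨1, one_mem _, by simp⟩)⟩
        · rw [← Subgroup.orderOf_coe]; exact orderOf_two_of (t := t₀) ht₀ (by omega)
        · show inv₂ Q t₀ = label 2 i
          rw [hi]; exact Prod.ext hrm (eq_true ha₀)
      · obtain ⟨g, hg, hgi⟩ := exists_of_label_Omega h2 hQ hgen hna hal i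
        exact ⟨g, hg, Prod.ext hgi (eq_false fun h => hi (hgi ▸ h.1))⟩
    · obtain ⟨u, hu⟩ := exists_value_ne hQ (by omega)
      set x := listGL Q [⟨u, hu⟩] with hx
      have hxO : x ∉ Cfsg.Omega F ⇑Q := by rw [hx, mem_iff_even h2 hQ hgen]; simp
      have hxt : x * t₀ * x⁻¹ * (x * t₀ * x⁻¹) = 1 := by
        calc _ = x * (t₀ * t₀) * x⁻¹ := by group
          _ = 1 := by rw [ht₀]; group
      have hinv : inv₂ Q (x * t₀ * x⁻¹) = (m, True) :=
        ((isConj_iff_inv₂ h2 hQ ht₀ hxt).1 (isConj_iff.2 ⟨x, rfl⟩)).symm.trans (Prod.ext hrm (eq_true ha₀))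
      have hmem : x * t₀ * x⁻¹ ∈ Cfsg.Omega F ⇑Q :=
        (mem_Omega_iff_rank h2 hQ hgen _).2 ⟨m', (congrArg Prod.fst hinv).trans hm'⟩
      refine ⟨⟨_, hmem⟩, ?_, Prod.ext hinv (eq_true ⟨hinv, ?_⟩)⟩
      · rw [← Subgroup.orderOf_coe]
        refine orderOf_two_of hxt ?_
        rw [show (((x * t₀ * x⁻¹ : Cfsg.isometryGroup F ⇑Q) : GL ι F).1 - 1).rank = m from congrArg Prod.fst hinv]
        omega
      · rintro ⟨y, hy, ey⟩
        refine hxO ?_
        have h1 : x⁻¹ * y * t₀ * (x⁻¹ * y)⁻¹ = t₀ := by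
          calc _ = x⁻¹ * (y * t₀ * y⁻¹) * x := by group
            _ = x⁻¹ * (x * t₀ * x⁻¹) * x := congrArg (fun z => x⁻¹ * z * x) ey
            _ = t₀ := by group
        simpa using mul_mem hy (inv_mem (mem_Omega_of_comm h2 hQ hgen h1 hW hev₀))

end CfsgLib.InvTwo
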