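import Cfsg.Agent.InvTwo.Frame

/-!
Conjugating two maps with similar frames by Witt's theorem.
-/

set_option autoImplicit false

open QuadraticMap

namespace CfsgLib.InvTwo

variable {F V : Type*} [Field F] [AddCommGroup V] [Module F V] [FiniteDimensional F V]
  {f : V →ₗ[F] V →ₗ[F] F} {N N' : V →ₗ[F] V} {ι : Type} [Fintype ι] [DecidableEq ι] {σ : ι → ι} {u u' : ι → V}

variable (hN : SelfAdj f N) (hN' : SelfAdj f N') (hF : Frame f N σ u) (hF' : Frame f N' σ u')
include hN hN' hF hF'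

theorem f_comb (a b : (ι → F) × (ι → F)) : f (comb N' u' a) (comb N' u' b) = f (comb N u a) (comb N u b) := by
  rw [comb_apply (N := N') b, comb_apply (N := N) b]
  simp only [map_add, map_sum, map_smul, f_comb_u hN hF, f_comb_u hN' hF', f_comb_w hN hF, f_comb_w hN' hF']

/-- The partial isometry between the frames. -/
theorem exists_phi : ∃ φ : LinearMap.range (comb N u) →ₗ[F] V,
    Function.Injective φ ∧ ∀ a, φ ⟨comb N u a, a, rfl⟩ = comb N' u' a := by
  refine ⟨(comb N' u').comp (LinearEquiv.ofInjective _ (comb_injective hN hF)).symm.toLinearMap, ?_, fun a => ?_⟩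
  · exact (comb_injective hN' hF').comp (LinearEquiv.injective _)
  · have e : (LinearEquiv.ofInjective _ (comb_injective hN hF)).symm ⟨comb N u a, a, rfl⟩ = a := by
      rw [LinearEquiv.symm_apply_eq]; rfl
    rw [LinearMap.comp_apply, LinearEquiv.coe_coe, e]

/-- An isometry sending one frame to the other conjugates the maps. -/
theorem intertwines {g : V ≃ₗ[F] V} (hg : ∀ x y, f (g x) (g y) = f x y) (h : ∀ a, g (comb N u a) = comb N' u' a)
    (x : V) : g (N x) = N' (g x) := by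
  have hw : ∀ i, g (N (u i)) = N' (u' i) := fun i => by
    rw [← comb_single_right (N := N) (u := u) i, h, comb_single_right]
  rw [N_eq hN hF x, N_eq hN' hF' (g x), map_sum]
  simp only [map_smul, hw]
  refine Finset.sum_congr rfl fun i _ => ?_
  rw [← hw (σ i), hg]

theorem exists_conj_frame : ∃ g : V ≃ₗ[F] V, (∀ x y, f (g x) (g y) = f x y) ∧ (∀ x, g (N x) = N' (g x)) ∧
    ∀ i, g (u i) = u' i := by
  obtain ⟨φ, hφi, hφ⟩ := exists_phi hN hN' hF hF'
  obtain ⟨g, hg, hgφ⟩ := CfsgLib.Forms.witt_alt f hN.inj hN.alt _ φ hφi (by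
    rintro ⟨_, a, rfl⟩ ⟨_, b, rfl⟩
    rw [hφ, hφ]
    exact f_comb hN hN' hF hF' a b)
  have h : ∀ a, g (comb N u a) = comb N' u' a := fun a => (hgφ ⟨_, a, rfl⟩).trans (hφ a)
  refine ⟨g, hg, intertwines hN hN' hF hF' hg h, fun i => ?_⟩
  rw [← comb_single_left (N := N) (u := u) i, h, comb_single_left]

theorem exists_conj : ∃ g : V ≃ₗ[F] V, (∀ x y, f (g x) (g y) = f x y) ∧ ∀ x, g (N x) = N' (g x) :=
  let ⟨g, h1, h2, _⟩ := exists_conj_frame hN hN' hF hF'
  ⟨g, h1, h2⟩

variable {Q : QuadraticForm F V} (hQf : ∀ x y, polar Q x y = f x y)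
  (hQN : ∀ v, Q (N v) = f v (N v)) (hQN' : ∀ v, Q (N' v) = f v (N' v))
include hQf hQN hQN'

theorem Q_comb (a : (ι → F) × (ι → F)) (hQu : ∀ i, a.1 i = 0 ∨ Q (u i) = Q (u' i)) :
    Q (comb N' u' a) = Q (comb N u a) := by
  have hadd : ∀ a b, Q (comb N' u' a) = Q (comb N u a) → Q (comb N' u' b) = Q (comb N u b) →
      Q (comb N' u' (a + b)) = Q (comb N u (a + b)) := fun a b ha hb => by
    rw [(comb N' u').map_add, (comb N u).map_add, QuadraticMap.map_add (⇑Q), QuadraticMap.map_add (⇑Q) (comb N u a), ha, hb, hQf, hQf,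
      f_comb hN hN' hF hF']
  have hsm : ∀ (c : F) a, Q (comb N' u' a) = Q (comb N u a) → Q (comb N' u' (c • a)) = Q (comb N u (c • a)) :=
    fun c a ha => by rw [(comb N' u').map_smul, (comb N u).map_smul, QuadraticMap.map_smul, QuadraticMap.map_smul, ha]
  have e : a = ∑ i, a.1 i • ((Pi.single i 1, 0) : (ι → F) × (ι → F)) + ∑ i, a.2 i • (0, Pi.single i 1) := by
    refine Prod.ext (funext fun j => ?_) (funext fun j => ?_) <;>
      simp [Prod.fst_sum, Prod.snd_sum, Finset.sum_apply, Pi.single_apply]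
  rw [e]
  refine hadd _ _ ?_ ?_
  · refine Finset.sum_induction _ (fun a => Q (comb N' u' a) = Q (comb N u a)) hadd (by simp) fun i _ => ?_
    rcases hQu i with h | h
    · simp [h]
    · exact hsm _ _ (by rw [comb_single_left, comb_single_left, h])
  · refine Finset.sum_induction _ (fun a => Q (comb N' u' a) = Q (comb N u a)) hadd (by simp) fun i _ => hsm _ _ ?_
    rw [comb_single_right, comb_single_right, hQN, hQN', hF.dual, hF'.dual]

theorem exists_conj_orth_frame (hQu : ∀ i, Q (u i) = Q (u' i)) :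
    ∃ g : V ≃ₗ[F] V, (∀ v, Q (g v) = Q v) ∧ (∀ x, g (N x) = N' (g x)) ∧ ∀ i, g (u i) = u' i := by
  obtain ⟨φ, hφi, hφ⟩ := exists_phi hN hN' hF hF'
  have h0 : ∀ x, (∀ y, polarBilin Q x y = 0) → x = 0 := fun x hx => hN.inj <| LinearMap.ext fun y => by
    rw [map_zero, LinearMap.zero_apply, ← hQf, ← polarBilin_apply_apply]
    exact hx y
  have hQ : (polarBilin Q).Nondegenerate :=
    ⟨h0, fun x hx => h0 x fun y => by
      have := hx y
      rwa [polarBilin_apply_apply, polar_comm, ← polarBilin_apply_apply] at this⟩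
  obtain ⟨g, hg, hgφ⟩ := CfsgLib.Forms.witt hQ _ φ hφi (by
    rintro ⟨_, a, rfl⟩
    rw [hφ]
    exact Q_comb hN hN' hF hF' hQf hQN hQN' a fun i => .inr (hQu i))
  have h : ∀ a, g (comb N u a) = comb N' u' a := fun a => (hgφ ⟨_, a, rfl⟩).trans (hφ a)
  refine ⟨g, hg, intertwines hN hN' hF hF' (fun x y => ?_) h, fun i => ?_⟩
  · rw [← hQf, ← hQf, polar, polar, ← map_add, hg, hg, hg]
  · rw [← comb_single_left (N := N) (u := u) i, h, comb_single_left]

theorem exists_conj_orth (hQu : ∀ i, Q (u i) = Q (u' i)) :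
    ∃ g : V ≃ₗ[F] V, (∀ v, Q (g v) = Q v) ∧ ∀ x, g (N x) = N' (g x) :=
  let ⟨g, h1, h2, _⟩ := exists_conj_orth_frame hN hN' hF hF' hQf hQN hQN' hQu
  ⟨g, h1, h2⟩

end CfsgLib.InvTwo
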