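import Cfsg.Agent.InvTwo.Bridge

/-!
Involutions with prescribed invariants.
-/

set_option autoImplicit false
set_option linter.unusedSectionVars false

namespace CfsgLib.InvTwo

open QuadraticMap Matrix
open CfsgLib.Forms

variable {F : Type*} [Field F] [Finite F] {ι : Type} [Fintype ι] [DecidableEq ι] {Q : QuadraticForm F (ι → F)}

theorem Q_sum_orth {κ : Type} [DecidableEq κ] (w : κ → ι → F) (horth : ∀ i j, polar Q (w i) (w j) = 0) (a : κ → F)
    (s : Finset κ) : Q (∑ j ∈ s, a j • w j) = ∑ j ∈ s, a j ^ 2 * Q (w j) := by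
  induction s using Finset.induction_on with
  | empty => simp
  | insert j s hj ih =>
    rw [Finset.sum_insert hj, Finset.sum_insert hj, QuadraticMap.map_add (⇑Q), ih, ← polarBilin_apply_apply]
    simp [map_sum, horth, QuadraticMap.map_smul, pow_two]

theorem exists_involution (h2 : (2 : F) = 0) (hQ : (polarBilin Q).Nondegenerate) {κ : Type} [Fintype κ]
    [DecidableEq κ] (σ : κ → κ) (hσ : Function.Involutive σ) (w : κ → ι → F) (hw : LinearIndependent F w)
    (horth : ∀ i j, polar Q (w i) (w j) = 0) (hQw : ∀ i, Q (w i) = if σ i = i then 1 else 0) :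
    ∃ t : Cfsg.isometryGroup F ⇑Q, t * t = 1 ∧ ((t : GL ι F).1 - 1).rank = Fintype.card κ ∧
      (IsAltN (polarBilin Q) (nilM (t : GL ι F).1) ↔ ∀ i, σ i ≠ i) := by
  let N : (ι → F) →ₗ[F] (ι → F) := ∑ i, LinearMap.smulRight ((polarBilin Q).flip (w (σ i))) (w i)
  have hNa : ∀ v, N v = ∑ i, polar Q v (w (σ i)) • w i := fun v => by simp [N, LinearMap.sum_apply]
  have hNN : ∀ v, N (N v) = 0 := fun v => by
    rw [hNa (N v)]
    refine Finset.sum_eq_zero fun i _ => ?_
    rw [hNa, ← polarBilin_apply_apply]
    simp [map_sum, horth]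
  have hfN : ∀ v, polar Q v (N v) = Q (N v) := fun v => by
    rw [hNa, Q_sum_orth w horth, ← polarBilin_apply_apply, map_sum]
    simp only [map_smul, polarBilin_apply_apply, smul_eq_mul, hQw]
    rw [← sub_eq_zero, ← Finset.sum_sub_distrib]
    refine Finset.sum_ninvolution σ (fun i => ?_) (fun {i} hi => ?_) (fun i => Finset.mem_univ _) (fun i => hσ i)
    · by_cases h : σ i = i
      · simp [h, pow_two]
      · rw [hσ i, if_neg h, if_neg (Ne.symm h)]
        linear_combination polar Q v (w i) * polar Q v (w (σ i)) * h2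
    · intro h
      apply hi
      simp [h, pow_two]
  have hTT : Function.Involutive (LinearMap.id + N : (ι → F) →ₗ[F] (ι → F)) := fun v => by
    simp only [LinearMap.add_apply, LinearMap.id_apply, map_add, hNN, add_zero]
    funext i
    simp only [Pi.add_apply]
    linear_combination (N v) i * h2
  let T : (ι → F) ≃ₗ[F] (ι → F) := LinearEquiv.ofInvolutive _ hTT
  have hT : T ∈ isom Q := fun v => by
    show Q (v + N v) = Q v
    rw [QuadraticMap.map_add (⇑Q), hfN]
    linear_combination Q (N v) * h2
  refine ⟨(isoEquiv Q).symm ⟨T, hT⟩, ?_, ?_⟩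
  · rw [← map_mul]
    conv_rhs => rw [← map_one (isoEquiv Q).symm]
    exact congrArg _ (Subtype.ext (LinearEquiv.ext fun v => hTT v))
  have hnil : nilM (((isoEquiv Q).symm ⟨T, hT⟩ : Cfsg.isometryGroup F ⇑Q) : GL ι F).1 = N := by
    refine LinearMap.ext fun v => ?_
    rw [nilM_apply, ← glEquiv_apply, ← coe_isoEquiv, MulEquiv.apply_symm_apply]
    exact add_sub_cancel_left v (N v)
  refine ⟨?_, ?_⟩
  · rw [rank_nilM, hnil]
    have hker : LinearMap.ker N = perp Q (Submodule.span F (Set.range w)) := by
      ext v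
      rw [LinearMap.mem_ker, mem_perp, hNa]
      constructor
      · intro h z hz
        have h' := Fintype.linearIndependent_iff.1 hw _ h
        induction hz using Submodule.span_induction with
        | mem x hx =>
          obtain ⟨i, rfl⟩ := hx
          have := h' (σ i)
          rwa [hσ i] at this
        | zero => simp [polar]
        | add x y _ _ hx hy => rw [polar_add_right, hx, hy, add_zero]
        | smul c x _ hx => rw [polar_smul_right, hx, smul_zero]
      · intro h
        refine Finset.sum_eq_zero fun i _ => ?_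
        rw [h _ (Submodule.subset_span ⟨σ i, rfl⟩), zero_smul]
    have h1 := LinearMap.finrank_range_add_finrank_ker N
    rw [hker, finrank_perp hQ, finrank_span_eq_card hw] at h1
    have h3 : Fintype.card κ ≤ Module.finrank F (ι → F) := hw.fintype_card_le_finrank
    omega
  · rw [hnil, IsAltN]
    simp only [polarBilin_apply_apply, hfN]
    constructor
    · intro h i hi
      classical
      have hz : ∀ v, polar Q v (∑ j ∈ Finset.univ.filter (fun j => σ j = j), w j) = 0 := fun v => by
        have h3 := h v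
        rw [hNa, Q_sum_orth w horth] at h3
        rw [← polarBilin_apply_apply, map_sum]
        simp only [polarBilin_apply_apply]
        have e : ∀ S : Finset κ, (∑ j ∈ S, polar Q v (w j)) ^ 2 = ∑ j ∈ S, polar Q v (w j) ^ 2 := fun S => by
          induction S using Finset.induction_on with
          | empty => simp
          | insert j S hj ih =>
            rw [Finset.sum_insert hj, Finset.sum_insert hj, ← ih]
            linear_combination (polar Q v (w j) * ∑ x ∈ S, polar Q v (w x)) * h2
        refine (pow_eq_zero_iff two_ne_zero).1 ?_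
        rw [e, ← h3, Finset.sum_filter]
        refine Finset.sum_congr rfl fun j _ => ?_
        rw [hQw]
        by_cases hj : σ j = j
        · rw [if_pos hj, if_pos hj, hj, mul_one]
        · rw [if_neg hj, if_neg hj, mul_zero]
      have h4 : (∑ j ∈ Finset.univ.filter (fun j => σ j = j), w j) = 0 :=
        hQ.2 _ fun v => hz v
      have h5 := linearIndependent_iff'.1 hw (Finset.univ.filter (fun j => σ j = j)) (fun _ => (1 : F))
        (by simpa using h4) i
        (Finset.mem_filter.2 ⟨Finset.mem_univ _, hi⟩)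
      exact one_ne_zero h5
    · intro h v
      rw [hNa, Q_sum_orth w horth]
      exact Finset.sum_eq_zero fun j _ => by rw [hQw, if_neg (h j), mul_zero]

theorem exists_nonalt (h2 : (2 : F) = 0) (hQ : (polarBilin Q).Nondegenerate) {k : ℕ} (w : Fin k → ι → F)
    (hw : LinearIndependent F w) (horth : ∀ i j, polar Q (w i) (w j) = 0) (hQw : ∀ i, Q (w i) = 1) {s : ℕ}
    (h1 : 1 ≤ s) (hs : s ≤ k) :
    ∃ t : Cfsg.isometryGroup F ⇑Q, t * t = 1 ∧ ((t : GL ι F).1 - 1).rank = s ∧
      ¬ IsAltN (polarBilin Q) (nilM (t : GL ι F).1) := by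
  obtain ⟨t, ht, hr, ha⟩ := exists_involution h2 hQ (κ := Fin s) id (fun _ => rfl) (w ∘ Fin.castLE hs)
    (hw.comp _ (Fin.castLE_injective hs)) (fun _ _ => horth _ _) (fun i => by simp [hQw])
  exact ⟨t, ht, by simpa using hr, fun h => (ha.1 h) ⟨0, h1⟩ rfl⟩

theorem exists_alt (h2 : (2 : F) = 0) (hQ : (polarBilin Q).Nondegenerate) {k : ℕ} (e : Fin k → ι → F)
    (he : LinearIndependent F e) (horth : ∀ i j, polar Q (e i) (e j) = 0) (hQe : ∀ i, Q (e i) = 0) {r : ℕ}
    (hs : r + r ≤ k) :
    ∃ t : Cfsg.isometryGroup F ⇑Q, t * t = 1 ∧ ((t : GL ι F).1 - 1).rank = r + r ∧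
      IsAltN (polarBilin Q) (nilM (t : GL ι F).1) := by
  obtain ⟨t, ht, hr, ha⟩ := exists_involution h2 hQ (κ := Fin r ⊕ Fin r) Sum.swap Sum.swap_swap
    (e ∘ Fin.castLE hs ∘ finSumFinEquiv)
    (he.comp _ ((Fin.castLE_injective hs).comp finSumFinEquiv.injective)) (fun _ _ => horth _ _)
    (fun i => by rw [if_neg (by cases i <;> simp)]; exact hQe _)
  exact ⟨t, ht, by simpa using hr, ha.2 fun i => by cases i <;> simp⟩

end CfsgLib.InvTwo
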