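import Cfsg.Agent.InvTwo.SymForm
import Cfsg.Agent.Forms.Witt
import Cfsg.Agent.Forms.WittSesq

/-!
Normal frames of square-zero self-adjoint maps, in the symplectic and in the orthogonal setting.
-/

set_option autoImplicit false

open QuadraticMap

namespace CfsgLib.InvTwo

variable {F V : Type*} [Field F] [AddCommGroup V] [Module F V] [FiniteDimensional F V]

/-- A square-zero self-adjoint map for an alternating form in characteristic two. -/
structure SelfAdj (f : V →ₗ[F] V →ₗ[F] F) (N : V →ₗ[F] V) : Prop where
  two : (2 : F) = 0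
  alt : ∀ v, f v v = 0
  inj : Function.Injective f
  sq : ∀ v, N (N v) = 0
  adj : ∀ u v, f (N u) v = f u (N v)

variable {f : V →ₗ[F] V →ₗ[F] F} {N : V →ₗ[F] V}

theorem SelfAdj.symm (h : SelfAdj f N) (u v : V) : f u v = f v u := by
  have e := h.alt (u + v)
  simp only [map_add, LinearMap.add_apply, h.alt, zero_add, add_zero] at e
  linear_combination e - f v u * h.two

theorem SelfAdj.radical (h : SelfAdj f N) {x : V} (hx : ∀ y, f x (N y) = 0) : N x = 0 :=
  h.inj (by rw [map_zero]; exact LinearMap.ext fun y => by rw [h.adj, hx, LinearMap.zero_apply])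

theorem SelfAdj.nn (h : SelfAdj f N) (u v : V) : f (N u) (N v) = 0 := by rw [h.adj, h.sq, map_zero]

variable {ι : Type} [Fintype ι] [DecidableEq ι]

/-- A normal frame for `N`. -/
structure Frame (f : V →ₗ[F] V →ₗ[F] F) (N : V →ₗ[F] V) (σ : ι → ι) (u : ι → V) : Prop where
  invol : Function.Involutive σ
  dual : ∀ i j, f (u i) (N (u j)) = if j = σ i then 1 else 0
  orth : ∀ i j, f (u i) (u j) = 0
  rad : ∀ x, (∀ i, f x (N (u i)) = 0) → N x = 0

variable {σ : ι → ι} {u : ι → V}

/-- The vector with the given coordinates on `u` and `N u`. -/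
noncomputable def comb (N : V →ₗ[F] V) (u : ι → V) : (ι → F) × (ι → F) →ₗ[F] V :=
  (Fintype.linearCombination F u).coprod (Fintype.linearCombination F fun i => N (u i))

theorem comb_apply (a : (ι → F) × (ι → F)) :
    comb N u a = ∑ i, a.1 i • u i + ∑ i, a.2 i • N (u i) := by
  simp [comb, Fintype.linearCombination_apply]

theorem comb_single_left (i : ι) : comb N u (Pi.single i 1, 0) = u i := by
  rw [comb_apply]; simp [Pi.single_apply]

theorem comb_single_right (i : ι) : comb N u (0, Pi.single i 1) = N (u i) := by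
  rw [comb_apply]; simp [Pi.single_apply]

/-- The projection on the orthogonal of the frame. -/
noncomputable def proj (f : V →ₗ[F] V →ₗ[F] F) (N : V →ₗ[F] V) (σ : ι → ι) (u : ι → V) (x : V) : V :=
  x - comb N u (fun i => f x (N (u (σ i))), fun i => f x (u (σ i)))

variable (hN : SelfAdj f N) (hF : Frame f N σ u)
include hN hF

theorem f_comb_w (a : (ι → F) × (ι → F)) (j : ι) : f (comb N u a) (N (u j)) = a.1 (σ j) := by
  simp only [comb_apply, map_add, map_sum, map_smul, LinearMap.add_apply, LinearMap.sum_apply,
    LinearMap.smul_apply, hN.nn, hF.dual, smul_eq_mul, mul_zero, Finset.sum_const_zero, add_zero, mul_ite, mul_one]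
  rw [Finset.sum_eq_single (σ j)]
  · rw [hF.invol j, if_pos rfl]
  · intro b _ hb
    exact if_neg fun h => hb (by rw [h, hF.invol b])
  · simp

theorem f_comb_u (a : (ι → F) × (ι → F)) (j : ι) : f (comb N u a) (u j) = a.2 (σ j) := by
  simp only [comb_apply, map_add, map_sum, map_smul, LinearMap.add_apply, LinearMap.sum_apply,
    LinearMap.smul_apply, hF.orth, hN.adj, hF.dual, smul_eq_mul, mul_zero, Finset.sum_const_zero, zero_add, mul_ite,
    mul_one]
  rw [Finset.sum_eq_single (σ j)]
  · rw [hF.invol j, if_pos rfl]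
  · intro b _ hb
    exact if_neg fun h => hb (by rw [h, hF.invol b])
  · simp

theorem comb_injective : Function.Injective (comb N u) := by
  intro a b h
  refine Prod.ext (funext fun i => ?_) (funext fun i => ?_)
  · rw [← hF.invol i, ← f_comb_w hN hF a, h, f_comb_w hN hF b]
  · rw [← hF.invol i, ← f_comb_u hN hF a, h, f_comb_u hN hF b]

theorem proj_w (x : V) (j : ι) : f (proj f N σ u x) (N (u j)) = 0 := by
  rw [proj, map_sub, LinearMap.sub_apply, f_comb_w hN hF]
  simp [hF.invol j]

theorem proj_u (x : V) (j : ι) : f (proj f N σ u x) (u j) = 0 := by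
  rw [proj, map_sub, LinearMap.sub_apply, f_comb_u hN hF]
  simp [hF.invol j]

/-- `N` in coordinates. -/
theorem N_eq (x : V) : N x = ∑ i, f x (N (u (σ i))) • N (u i) := by
  have h := hF.rad _ (proj_w hN hF x)
  rw [proj, map_sub, sub_eq_zero, comb_apply] at h
  simpa [map_sum, hN.sq] using h

theorem range_eq : LinearMap.range N = LinearMap.range (Fintype.linearCombination F fun i => N (u i)) := by
  refine le_antisymm ?_ ?_
  · rintro _ ⟨x, rfl⟩
    exact ⟨fun i => f x (N (u (σ i))), by rw [Fintype.linearCombination_apply, ← N_eq hN hF x]⟩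
  · rintro _ ⟨a, rfl⟩
    refine ⟨Fintype.linearCombination F u a, ?_⟩
    simp [Fintype.linearCombination_apply, map_sum]

theorem finrank_range : Module.finrank F (LinearMap.range N) = Fintype.card ι := by
  rw [range_eq hN hF, LinearMap.finrank_range_of_inj ?_, Module.finrank_fintype_fun_eq_card]
  intro a b h
  refine congrArg Prod.snd (comb_injective hN hF (a₁ := ((0 : ι → F), a)) (a₂ := (0, b)) ?_)
  rw [comb_apply, comb_apply]
  simpa [Fintype.linearCombination_apply] using h

/-- Outside of the frame there is a vector orthogonal to it. -/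
theorem exists_orth (hlt : 2 * Fintype.card ι < Module.finrank F V) :
    ∃ z, z ≠ 0 ∧ (∀ i, f z (u i) = 0) ∧ ∀ i, f z (N (u i)) = 0 := by
  have hne : LinearMap.range (comb N u) ≠ ⊤ := fun h => by
    have h1 := LinearMap.finrank_range_of_inj (comb_injective hN hF)
    rw [h, finrank_top, Module.finrank_prod, Module.finrank_fintype_fun_eq_card] at h1
    omega
  obtain ⟨x, hx⟩ : ∃ x, x ∉ LinearMap.range (comb N u) := by
    by_contra hh
    push_neg at hh
    exact hne (eq_top_iff.2 fun x _ => hh x)
  exact ⟨proj f N σ u x, fun h => hx ⟨_, (sub_eq_zero.1 h).symm⟩, proj_u hN hF x, proj_w hN hF x⟩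

/-- A full frame spans. -/
theorem eq_comb (hfull : 2 * Fintype.card ι = Module.finrank F V) (x : V) :
    x = comb N u (fun i => f x (N (u (σ i))), fun i => f x (u (σ i))) := by
  have htop : LinearMap.range (comb N u) = ⊤ := by
    refine Submodule.eq_top_of_finrank_eq ?_
    rw [LinearMap.finrank_range_of_inj (comb_injective hN hF), Module.finrank_prod,
      Module.finrank_fintype_fun_eq_card]
    omega
  obtain ⟨a, rfl⟩ : x ∈ LinearMap.range (comb N u) := htop ▸ trivial
  congr 1
  refine Prod.ext (funext fun i => ?_) (funext fun i => ?_)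
  · simp [f_comb_w hN hF, hF.invol i]
  · simp [f_comb_u hN hF, hF.invol i]

/-- Shifting `u` by a symmetric combination of the images. -/
theorem Frame.shift (c : ι → ι → F) (hc : ∀ i j, c i j = c j i) :
    Frame f N σ (fun i => u i + ∑ j, c i j • N (u (σ j))) := by
  have hw : ∀ i, N (u i + ∑ j, c i j • N (u (σ j))) = N (u i) := fun i => by simp [map_sum, hN.sq]
  refine ⟨hF.invol, fun i j => ?_, fun i k => ?_, fun x hx => hF.rad x fun i => by rw [← hw]; exact hx i⟩
  · rw [hw]
    simp [map_sum, hN.nn, hF.dual]
  · simp only [map_add, map_sum, map_smul, LinearMap.add_apply, LinearMap.sum_apply, LinearMap.smul_apply, hF.orth,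
      hN.nn, hN.adj, hN.sq, hF.dual, smul_eq_mul, mul_zero, map_zero, Finset.sum_const_zero, zero_add, add_zero,
      mul_ite, mul_one]
    have e : ∀ j, (j = k) = (σ j = σ k) := fun j => propext hF.invol.injective.eq_iff.symm
    simp only [hF.invol.injective.eq_iff, hF.invol _, hF.invol k, Finset.sum_ite_eq, Finset.sum_ite_eq',
      Finset.mem_univ, if_true]
    linear_combination c i k * hN.two + hc k i

omit hF in
/-- Frames exist on a family normal for the form `f (u, N v)`. -/
theorem exists_frame {b : ι → V} (hσ : Function.Involutive σ)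
    (hb : ∀ i j, f (b i) (N (b j)) = if j = σ i then 1 else 0)
    (hr : ∀ x, (∀ i, f x (N (b i)) = 0) → N x = 0) : ∃ u, Frame f N σ u := by
  classical
  let e := Fintype.equivFin ι
  let c : ι → ι → F := fun i j => if e i < e j then f (b i) (b j) else 0
  have hw : ∀ i, N (b i + ∑ j, c i j • N (b (σ j))) = N (b i) := fun i => by simp [map_sum, hN.sq]
  refine ⟨fun i => b i + ∑ j, c i j • N (b (σ j)), hσ, fun i j => ?_, fun i k => ?_,
    fun x hx => hr x fun i => by rw [← hw]; exact hx i⟩
  · rw [hw]
    simp [map_sum, hN.nn, hb]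
  · simp only [map_add, map_sum, map_smul, LinearMap.add_apply, LinearMap.sum_apply, LinearMap.smul_apply,
      hN.nn, hN.adj, hN.sq, hb, smul_eq_mul, mul_zero, map_zero, Finset.sum_const_zero, add_zero, mul_ite, mul_one]
    simp only [hσ.injective.eq_iff, hσ _, hσ k, Finset.sum_ite_eq, Finset.sum_ite_eq', Finset.mem_univ, if_true, c]
    rcases lt_trichotomy (e i) (e k) with h | h | h
    · rw [if_pos h, if_neg h.not_gt]
      linear_combination f (b i) (b k) * hN.two
    · obtain rfl := e.injective h
      simp [hN.alt]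
    · rw [if_neg h.not_gt, if_pos h, hN.symm (b k) (b i)]
      linear_combination f (b i) (b k) * hN.two

end CfsgLib.InvTwo
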