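import Cfsg.Agent.InvTwo.Conj

/-!
Normal values of the quadratic form on a frame, and the classification by rank and alternation.
-/

set_option autoImplicit false

open QuadraticMap

namespace CfsgLib.InvTwo

variable {F V : Type*} [Field F] [Finite F] [AddCommGroup V] [Module F V] [FiniteDimensional F V]
  {f : V →ₗ[F] V →ₗ[F] F} {N N' : V →ₗ[F] V}

/-- The form `f (u, N v)` is alternating. -/
def IsAltN (f : V →ₗ[F] V →ₗ[F] F) (N : V →ₗ[F] V) : Prop := ∀ v, f v (N v) = 0

theorem exists_frame_alt (hN : SelfAdj f N) (ha : IsAltN f N) :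
    ∃ (r : ℕ) (u : Fin r ⊕ Fin r → V), Frame f N Sum.swap u := by
  obtain ⟨r, b, hb, hr⟩ := exists_hyperbolic hN.two _ V le_rfl (f.compl₂ N)
    (fun u v => by simp only [LinearMap.compl₂_apply]; rw [← hN.adj, hN.symm]) (fun v => ha v)
  refine ⟨r, exists_frame (σ := Sum.swap) hN Sum.swap_swap hb fun x hx => hN.radical fun y => ?_⟩
  exact LinearMap.congr_fun (hr x hx) y

theorem exists_frame_diag (hN : SelfAdj f N) (ha : ¬ IsAltN f N) :
    ∃ (k : ℕ) (u : Fin k → V), Frame f N id u := by
  simp only [IsAltN, not_forall] at ha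
  obtain ⟨k, b, hb, hr⟩ := exists_orthonormal hN.two _ V le_rfl (f.compl₂ N)
    (fun u v => by simp only [LinearMap.compl₂_apply]; rw [← hN.adj, hN.symm]) ha
  refine ⟨k, exists_frame (σ := id) hN (fun _ => rfl) hb fun x hx => hN.radical fun y => ?_⟩
  exact LinearMap.congr_fun (hr x hx) y

/-- Rank and alternation classify up to isometries of `f`. -/
theorem exists_conj_of_inv (hN : SelfAdj f N) (hN' : SelfAdj f N')
    (hr : Module.finrank F (LinearMap.range N) = Module.finrank F (LinearMap.range N'))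
    (ha : IsAltN f N ↔ IsAltN f N') :
    ∃ g : V ≃ₗ[F] V, (∀ x y, f (g x) (g y) = f x y) ∧ ∀ x, g (N x) = N' (g x) := by
  by_cases h : IsAltN f N
  · obtain ⟨r, u, hu⟩ := exists_frame_alt hN h
    obtain ⟨r', u', hu'⟩ := exists_frame_alt hN' (ha.1 h)
    have : r = r' := by
      rw [finrank_range hN hu, finrank_range hN' hu'] at hr
      simp at hr; omega
    subst this
    exact exists_conj hN hN' hu hu'
  · obtain ⟨k, u, hu⟩ := exists_frame_diag hN h
    obtain ⟨k', u', hu'⟩ := exists_frame_diag hN' (ha.not.1 h)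
    have : k = k' := by
      rw [finrank_range hN hu, finrank_range hN' hu'] at hr
      simpa using hr
    subst this
    exact exists_conj hN hN' hu hu'

variable {Q : QuadraticForm F V} (hQf : ∀ x y, polar Q x y = f x y) (hQN : ∀ v, Q (N v) = f v (N v))
  {ι : Type} [Fintype ι] [DecidableEq ι] {σ : ι → ι} {u : ι → V} (hN : SelfAdj f N) (hF : Frame f N σ u)
include hQf hQN hN hF

theorem Q_sum_w (a : ι → F) :
    Q (∑ j, a j • N (u (σ j))) = ∑ j, if σ j = j then a j ^ 2 else 0 := by
  classical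
  have : ∀ s : Finset ι, Q (∑ j ∈ s, a j • N (u (σ j))) = ∑ j ∈ s, if σ j = j then a j ^ 2 else 0 := by
    intro s
    induction s using Finset.induction_on with
    | empty => simp
    | insert j s hj ih =>
      rw [Finset.sum_insert hj, Finset.sum_insert hj, QuadraticMap.map_add (⇑Q), ih, hQf]
      simp only [map_sum, map_smul, LinearMap.smul_apply, hN.nn, smul_zero, Finset.sum_const_zero, add_zero]
      rw [QuadraticMap.map_smul, hQN, hF.dual, hF.invol, smul_eq_mul, pow_two]
      by_cases h : σ j = j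
      · rw [if_pos h, if_pos h, mul_one]
      · rw [if_neg h, if_neg (Ne.symm ?_), mul_zero]
        exact fun e => h e.symm
  exact this _

theorem Q_shift (c : ι → ι → F) (i : ι) :
    Q (u i + ∑ j, c i j • N (u (σ j))) = Q (u i) + c i i + ∑ j, if σ j = j then c i j ^ 2 else 0 := by
  rw [QuadraticMap.map_add (⇑Q), Q_sum_w hQf hQN hN hF, hQf]
  simp only [map_sum, map_smul, hF.dual, smul_eq_mul, mul_ite, mul_one, mul_zero, hF.invol.injective.eq_iff,
    Finset.sum_ite_eq', Finset.mem_univ, if_true]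
  ring

theorem exists_zero_frame_alt (hσ : ∀ i, σ i ≠ i) : ∃ u' : ι → V, Frame f N σ u' ∧ ∀ i, Q (u' i) = 0 := by
  let c : ι → ι → F := fun i j => if j = i then Q (u i) else 0
  refine ⟨_, Frame.shift hN hF c fun i j => ?_, fun i => ?_⟩
  · by_cases h : j = i
    · subst h; rfl
    · simp [c, h, Ne.symm h]
  · rw [Q_shift hQf hQN hN hF]
    simp only [if_neg (hσ _), Finset.sum_const_zero, add_zero, c, if_true]
    linear_combination Q (u i) * hN.two

theorem exists_nonsingular_orth (hlt : 2 * Fintype.card ι < Module.finrank F V) :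
    ∃ z, Q z ≠ 0 ∧ (∀ i, f z (u i) = 0) ∧ ∀ i, f z (N (u i)) = 0 := by
  obtain ⟨z, hz, hzu, hzw⟩ := exists_orth hN hF hlt
  by_contra hh
  push Not at hh
  have h0 : ∀ x, (∀ i, f x (u i) = 0) → (∀ i, f x (N (u i)) = 0) → Q x = 0 := fun x h1 h3 => by
    by_contra hx
    obtain ⟨i, hi⟩ := hh x hx h1
    exact hi (h3 i)
  refine hz (hN.inj ?_)
  rw [map_zero]
  refine LinearMap.ext fun y => ?_
  have e : f z (proj f N σ u y) = f z y := by
    simp [proj, comb_apply, map_sum, hzu, hzw]
  have e1 := h0 (z + proj f N σ u y) (fun i => by simp [hzu, proj_u hN hF y i])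
    (fun i => by simp [hzw, proj_w hN hF y i])
  rw [QuadraticMap.map_add (⇑Q), h0 z hzu hzw, h0 _ (proj_u hN hF y) (proj_w hN hF y), hQf, zero_add, zero_add,
    e] at e1
  exact e1

theorem exists_zero_frame_of_lt (hlt : 2 * Fintype.card ι < Module.finrank F V) :
    ∃ u' : ι → V, Frame f N σ u' ∧ ∀ i, Q (u' i) = 0 := by
  obtain ⟨z, hz, hzu, hzw⟩ := exists_nonsingular_orth hQf hQN hN hF hlt
  have hNz : N z = 0 := hF.rad z hzw
  choose a ha using fun i => exists_sqrt hN.two (Q (u i) / Q z)
  have hw : ∀ i, N (u i + a i • z) = N (u i) := fun i => by simp [hNz]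
  refine ⟨fun i => u i + a i • z, ⟨hF.invol, fun i j => ?_, fun i k => ?_, fun x hx => hF.rad x fun i => ?_⟩,
    fun i => ?_⟩
  · rw [hw]; simp [hzw, hF.dual]
  · simp [hzu, hN.alt, hF.orth, hN.symm (u i) z]
  · rw [← hw]; exact hx i
  · rw [QuadraticMap.map_add (⇑Q), hQf, QuadraticMap.map_smul, map_smul, hN.symm, hzu, smul_zero, add_zero,
      smul_eq_mul, ← pow_two, ha, div_mul_cancel₀ _ hz]
    linear_combination Q (u i) * hN.two

theorem exists_one_frame (hσ : σ = id) (i₀ : ι) :
    ∃ u' : ι → V, Frame f N σ u' ∧ ∀ i, i ≠ i₀ → Q (u' i) = 0 := by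
  subst hσ
  choose r hr using fun i => exists_sqrt hN.two (Q (u i))
  let c : ι → ι → F := fun i j => if i = i₀ ∧ j ≠ i₀ then r j else if j = i₀ ∧ i ≠ i₀ then r i else 0
  refine ⟨_, Frame.shift hN hF c fun i j => ?_, fun i hi => ?_⟩
  · by_cases h1 : i = i₀ <;> by_cases h3 : j = i₀ <;> simp [c, h1, h3]
  · rw [Q_shift hQf hQN hN hF]
    have e : ∀ j, c i j ^ 2 = if j = i₀ then Q (u i) else 0 := fun j => by
      by_cases h : j = i₀ <;> simp [c, hi, h, hr]
    simp only [id, if_true, e, Finset.sum_ite_eq', Finset.mem_univ]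
    simp only [c, hi, false_and, and_false, if_false, add_zero]
    linear_combination Q (u i) * hN.two

omit hQf hQN hN hF

/-- If one full frame carries an isotropic plane, so does the other. -/
theorem mem_wp_of_mem (hQf : ∀ x y, polar Q x y = f x y) (hQN : ∀ v, Q (N v) = f v (N v))
    (hQN' : ∀ v, Q (N' v) = f v (N' v)) (hN : SelfAdj f N) (hN' : SelfAdj f N') {u u' : ι → V}
    (hF : Frame f N id u) (hF' : Frame f N' id u') {i₀ : ι} (hu : ∀ i, i ≠ i₀ → Q (u i) = 0)
    (hu' : ∀ i, i ≠ i₀ → Q (u' i) = 0) (hfull : 2 * Fintype.card ι = Module.finrank F V)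
    (h : Q (u i₀) ∈ (wp hN.two).range) : Q (u' i₀) ∈ (wp hN.two).range := by
  obtain ⟨e, he⟩ := h
  rw [wp_apply] at he
  obtain ⟨φ, hφi, hφ⟩ := exists_phi hN hN' hF hF'
  let S : Submodule F ((ι → F) × (ι → F)) :=
    LinearMap.ker ((LinearMap.proj i₀).comp (LinearMap.fst F _ _)) ⊓
      LinearMap.ker ((LinearMap.proj i₀).comp (LinearMap.snd F _ _))
  have hle : S.map (comb N u) ≤ LinearMap.range (comb N u) := LinearMap.map_le_range
  have h0 : ∀ x, (∀ y, polarBilin Q x y = 0) → x = 0 := fun x hx => hN.inj <| LinearMap.ext fun y => by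
    rw [map_zero, LinearMap.zero_apply, ← hQf, ← polarBilin_apply_apply]
    exact hx y
  have hQ : (polarBilin Q).Nondegenerate :=
    ⟨h0, fun x hx => h0 x fun y => by
      have := hx y
      rwa [polarBilin_apply_apply, polar_comm, ← polarBilin_apply_apply] at this⟩
  obtain ⟨g, hg, hgφ⟩ := CfsgLib.Forms.witt hQ _ (φ.comp (Submodule.inclusion hle))
    (hφi.comp (Submodule.inclusion_injective hle)) (by
      rintro ⟨_, a, ha, rfl⟩
      show Q (φ ⟨comb N u a, a, rfl⟩) = Q (comb N u a)
      rw [hφ]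
      refine Q_comb hN hN' hF hF' hQf hQN hQN' a fun i => ?_
      by_cases hi : i = i₀
      · exact .inl (hi ▸ ha.1)
      · exact .inr (by rw [hu i hi, hu' i hi]))
  have hgf : ∀ x y, f (g x) (g y) = f x y := fun x y => by
    rw [← hQf, ← hQf, polar, polar, ← map_add, hg, hg, hg]
  have hgu : ∀ i, i ≠ i₀ → g (u i) = u' i ∧ g (N (u i)) = N' (u' i) := fun i hi => by
    constructor
    · have := hgφ ⟨comb N u (Pi.single i 1, 0), _, ⟨by simp [Ne.symm hi], by simp⟩, rfl⟩
      simp only [comb_single_left] at this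
      rw [this]
      exact ((congrArg φ (Subtype.ext (comb_single_left (N := N) (u := u) i).symm)).trans (hφ _)).trans
        (comb_single_left i)
    · have := hgφ ⟨comb N u (0, Pi.single i 1), _, ⟨by simp, by simp [Ne.symm hi]⟩, rfl⟩
      simp only [comb_single_right] at this
      rw [this]
      exact ((congrArg φ (Subtype.ext (comb_single_right (N := N) (u := u) i).symm)).trans (hφ _)).trans
        (comb_single_right i)
  set v := u i₀ + e • N (u i₀) with hv
  have hQv : Q v = 0 := by
    rw [hv, QuadraticMap.map_add (⇑Q), QuadraticMap.map_smul, hQN, hQf, map_smul, hF.dual]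
    simp only [id, if_true, smul_eq_mul, mul_one]
    linear_combination -he + (e + e * e) * hN.two
  have hvne : v ≠ 0 := fun h => by
    have := congrArg (fun x => f x (N (u i₀))) h
    simp [hv, hN.nn, hF.dual] at this
  have hperp : ∀ i, i ≠ i₀ → f v (u i) = 0 ∧ f v (N (u i)) = 0 := fun i hi => by
    constructor <;> simp [hv, hN.nn, hN.adj, hF.dual, hF.orth, hi]
  set y := g v with hy
  have hyw : ∀ i, i ≠ i₀ → f y (N' (u' i)) = 0 := fun i hi => by
    rw [← (hgu i hi).2, hy, hgf, (hperp i hi).2]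
  have hyu : ∀ i, i ≠ i₀ → f y (u' i) = 0 := fun i hi => by
    rw [← (hgu i hi).1, hy, hgf, (hperp i hi).1]
  have hy2 := eq_comb hN' hF' hfull y
  rw [comb_apply, Finset.sum_eq_single i₀ (fun i _ hi => by simp [hyw i hi]) (by simp),
    Finset.sum_eq_single i₀ (fun i _ hi => by simp [hyu i hi]) (by simp)] at hy2
  simp only [id] at hy2
  generalize f y (N' (u' i₀)) = a at hy2
  generalize f y (u' i₀) = b at hy2
  have hQy : Q y = 0 := by rw [hy, hg, hQv]
  rw [hy2, QuadraticMap.map_add (⇑Q), QuadraticMap.map_smul, QuadraticMap.map_smul, hQN', hQf, map_smul,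
    map_smul, LinearMap.smul_apply, hF'.dual] at hQy
  simp only [id, if_true, smul_eq_mul, mul_one] at hQy
  have ha : a ≠ 0 := fun ha => by
    subst ha
    have hb : b = 0 := mul_self_eq_zero.1 (by linear_combination hQy)
    exact hvne (g.map_eq_zero_iff.1 (by rw [← hy, hy2, hb]; simp))
  refine ⟨b / a, ?_⟩
  rw [wp_apply]
  field_simp
  linear_combination hQy - a * a * Q (u' i₀) * hN.two

/-- Rank and alternation classify up to isometries of `Q`. -/
theorem exists_conj_orth_of_inv (hQf : ∀ x y, polar Q x y = f x y) (hQN : ∀ v, Q (N v) = f v (N v))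
    (hQN' : ∀ v, Q (N' v) = f v (N' v)) (hN : SelfAdj f N) (hN' : SelfAdj f N')
    (hr : Module.finrank F (LinearMap.range N) = Module.finrank F (LinearMap.range N'))
    (ha : IsAltN f N ↔ IsAltN f N') :
    ∃ g : V ≃ₗ[F] V, (∀ v, Q (g v) = Q v) ∧ ∀ x, g (N x) = N' (g x) := by
  by_cases h : IsAltN f N
  · obtain ⟨r, u, hu⟩ := exists_frame_alt hN h
    obtain ⟨r', u', hu'⟩ := exists_frame_alt hN' (ha.1 h)
    have : r = r' := by
      rw [finrank_range hN hu, finrank_range hN' hu'] at hr
      simp at hr; omega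
    subst this
    have hs : ∀ i : Fin r ⊕ Fin r, i.swap ≠ i := fun i => by cases i <;> simp
    obtain ⟨v, hv, hv0⟩ := exists_zero_frame_alt hQf hQN hN hu hs
    obtain ⟨v', hv', hv0'⟩ := exists_zero_frame_alt hQf hQN' hN' hu' hs
    exact exists_conj_orth hN hN' hv hv' hQf hQN hQN' fun i => by rw [hv0, hv0']
  · obtain ⟨k, u, hu⟩ := exists_frame_diag hN h
    obtain ⟨k', u', hu'⟩ := exists_frame_diag hN' (ha.not.1 h)
    have : k = k' := by
      rw [finrank_range hN hu, finrank_range hN' hu'] at hr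
      simpa using hr
    subst this
    have hle : 2 * Fintype.card (Fin k) ≤ Module.finrank F V := by
      have h1 := LinearMap.finrank_range_add_finrank_ker N
      have h3 := Submodule.finrank_mono (show LinearMap.range N ≤ LinearMap.ker N by
        rintro _ ⟨x, rfl⟩; exact LinearMap.mem_ker.2 (hN.sq x))
      rw [← finrank_range hN hu]
      omega
    rcases lt_or_eq_of_le hle with hlt | hfull
    · obtain ⟨v, hv, hv0⟩ := exists_zero_frame_of_lt hQf hQN hN hu hlt
      obtain ⟨v', hv', hv0'⟩ := exists_zero_frame_of_lt hQf hQN' hN' hu' hlt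
      exact exists_conj_orth hN hN' hv hv' hQf hQN hQN' fun i => by rw [hv0, hv0']
    · rcases Nat.eq_zero_or_pos k with rfl | hk
      · exact exists_conj_orth hN hN' hu hu' hQf hQN hQN' fun i => i.elim0
      let i₀ : Fin k := ⟨0, hk⟩
      obtain ⟨v, hv, hv0⟩ := exists_one_frame hQf hQN hN hu rfl i₀
      obtain ⟨v', hv', hv0'⟩ := exists_one_frame hQf hQN' hN' hu' rfl i₀
      obtain ⟨e, he⟩ := add_mem_wp hN.two
        ⟨mem_wp_of_mem hQf hQN hQN' hN hN' hv hv' hv0 hv0' hfull,
          mem_wp_of_mem hQf hQN' hQN hN' hN hv' hv hv0' hv0 hfull⟩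
      rw [wp_apply] at he
      let c : Fin k → Fin k → F := fun i j => if i = i₀ ∧ j = i₀ then e else 0
      refine exists_conj_orth hN hN' (Frame.shift hN hv c fun i j => by simp [c, and_comm]) hv' hQf hQN hQN'
        fun i => ?_
      rw [Q_shift hQf hQN hN hv]
      simp only [id, if_true]
      by_cases hi : i = i₀
      · subst hi
        have e1 : ∀ j, c i₀ j ^ 2 = if j = i₀ then e ^ 2 else 0 := fun j => by
          by_cases h : j = i₀ <;> simp [c, h]
        simp only [e1, Finset.sum_ite_eq', Finset.mem_univ, if_true]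
        simp only [c, and_self, if_true]
        linear_combination he + Q (v i₀) * hN.two
      · simp [c, hi, hv0 i hi, hv0' i hi]

end CfsgLib.InvTwo
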