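import Cfsg.Agent.InvTwo.Exist
import Cfsg.Agent.Forms.Standard

/-!
Involutions of each type for the standard forms.
-/

set_option autoImplicit false
set_option linter.unusedSectionVars false

namespace CfsgLib.InvTwo

open QuadraticMap Matrix
open CfsgLib.Forms

variable {F : Type*} [Field F] [Finite F]

theorem exists_nonalt_plus (h2 : (2 : F) = 0) {m s : ℕ} (h1 : 1 ≤ s) (hs : s ≤ m) :
    ∃ t : Cfsg.isometryGroup F ⇑(quadPlus F m), t * t = 1 ∧
      ((t : GL (Fin m ⊕ Fin m) F).1 - 1).rank = s ∧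
      ¬ IsAltN (polarBilin (quadPlus F m)) (nilM (t : GL (Fin m ⊕ Fin m) F).1) := by
  refine exists_nonalt h2 (nondegenerate_quadPlus m) (k := m)
    (fun i => Pi.single (.inl i) 1 + Pi.single (.inr i) 1) ?_ (fun i j => ?_) (fun i => ?_) h1 hs
  · rw [Fintype.linearIndependent_iff]
    intro a h i
    have := congrFun h (.inl i)
    simpa [Finset.sum_apply, Pi.single_apply] using this
  · rw [coe_quadPlus, polar_plus]
    refine Finset.sum_eq_zero fun k _ => ?_
    by_cases hi : k = i <;> by_cases hj : k = j <;>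
      simp [hi, hj, Pi.single_apply] <;> simp_all <;> linear_combination h2
  · simp [Cfsg.quadFormPlus, Pi.single_apply]

theorem exists_alt_plus (h2 : (2 : F) = 0) {m r : ℕ} (hs : r + r ≤ m) :
    ∃ t : Cfsg.isometryGroup F ⇑(quadPlus F m), t * t = 1 ∧
      ((t : GL (Fin m ⊕ Fin m) F).1 - 1).rank = r + r ∧
      IsAltN (polarBilin (quadPlus F m)) (nilM (t : GL (Fin m ⊕ Fin m) F).1) := by
  refine exists_alt h2 (nondegenerate_quadPlus m) (k := m) (fun i => Pi.single (.inl i) 1) ?_ (fun i j => ?_)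
    (fun i => ?_) hs
  · rw [Fintype.linearIndependent_iff]
    intro a h i
    have := congrFun h (.inl i)
    simpa [Finset.sum_apply, Pi.single_apply] using this
  · rw [coe_quadPlus, polar_plus]
    simp [Pi.single_apply]
  · simp [Cfsg.quadFormPlus, Pi.single_apply]

/-- The singular vectors of norm one in `quadMinus`. -/
noncomputable def wMinus (F : Type*) [Field F] (k : ℕ) : Fin (k + 1) → (Fin k ⊕ Fin k) ⊕ Fin 2 → F :=
  Fin.snoc (fun i => Pi.single (.inl (.inl i)) 1 + Pi.single (.inl (.inr i)) 1) (Pi.single (.inr 0) 1)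

theorem exists_nonalt_minus (h2 : (2 : F) = 0) {k s : ℕ} {a b : F}
    (hab : ∀ z₁ z₂ : F, z₁ ^ 2 + a * z₁ * z₂ + b * z₂ ^ 2 = 0 → z₁ = 0 ∧ z₂ = 0) (h1 : 1 ≤ s) (hs : s ≤ k + 1) :
    ∃ t : Cfsg.isometryGroup F ⇑(quadMinus F k a b), t * t = 1 ∧
      ((t : GL ((Fin k ⊕ Fin k) ⊕ Fin 2) F).1 - 1).rank = s ∧
      ¬ IsAltN (polarBilin (quadMinus F k a b)) (nilM (t : GL ((Fin k ⊕ Fin k) ⊕ Fin 2) F).1) := by
  refine exists_nonalt h2 (nondegenerate_quadMinus k hab) (k := k + 1) (wMinus F k) ?_ (fun i j => ?_)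
    (fun i => ?_) h1 hs
  · rw [Fintype.linearIndependent_iff]
    intro c h i
    cases i using Fin.lastCases with
    | last =>
      have := congrFun h (.inr 0)
      simpa [Finset.sum_apply, wMinus, Pi.single_apply, Fin.sum_univ_castSucc] using this
    | cast i =>
      have := congrFun h (.inl (.inl i))
      simpa [Finset.sum_apply, wMinus, Pi.single_apply, Fin.sum_univ_castSucc] using this
  · rw [coe_quadMinus, polar_minus]
    cases i using Fin.lastCases with
    | last =>
      cases j using Fin.lastCases with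
      | last => simp [wMinus, Pi.single_apply, h2]
      | cast j => simp [wMinus, Pi.single_apply, h2]
    | cast i =>
      cases j using Fin.lastCases with
      | last => simp [wMinus, Pi.single_apply, h2]
      | cast j =>
        simp only [wMinus, Fin.snoc_castSucc, Pi.add_apply, Pi.single_apply, reduceCtorEq, if_false, add_zero,
          mul_zero, zero_add, Sum.inl.injEq, Sum.inr.injEq, mul_one]
        refine Finset.sum_eq_zero fun x _ => ?_
        by_cases hi : x = i <;> by_cases hj : x = j <;> simp [hi, hj] <;> simp_all <;> linear_combination h2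
  · cases i using Fin.lastCases with
    | last => simp [Cfsg.quadFormMinus, wMinus, Pi.single_apply]
    | cast i => simp [Cfsg.quadFormMinus, wMinus, Pi.single_apply]

theorem exists_alt_minus (h2 : (2 : F) = 0) {k r : ℕ} {a b : F}
    (hab : ∀ z₁ z₂ : F, z₁ ^ 2 + a * z₁ * z₂ + b * z₂ ^ 2 = 0 → z₁ = 0 ∧ z₂ = 0) (hs : r + r ≤ k) :
    ∃ t : Cfsg.isometryGroup F ⇑(quadMinus F k a b), t * t = 1 ∧
      ((t : GL ((Fin k ⊕ Fin k) ⊕ Fin 2) F).1 - 1).rank = r + r ∧
      IsAltN (polarBilin (quadMinus F k a b)) (nilM (t : GL ((Fin k ⊕ Fin k) ⊕ Fin 2) F).1) := by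
  refine exists_alt h2 (nondegenerate_quadMinus k hab) (k := k) (fun i => Pi.single (.inl (.inl i)) 1) ?_
    (fun i j => ?_) (fun i => ?_) hs
  · rw [Fintype.linearIndependent_iff]
    intro c h i
    have := congrFun h (.inl (.inl i))
    simpa [Finset.sum_apply, Pi.single_apply] using this
  · rw [coe_quadMinus, polar_minus]
    simp [Pi.single_apply]
  · simp [Cfsg.quadFormMinus, Pi.single_apply]

/-- No involution of the minus form is alternating of full rank. -/
theorem not_alt_full_minus (h2 : (2 : F) = 0) {k : ℕ} {a b : F}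
    (hab : ∀ z₁ z₂ : F, z₁ ^ 2 + a * z₁ * z₂ + b * z₂ ^ 2 = 0 → z₁ = 0 ∧ z₂ = 0)
    (t : Cfsg.isometryGroup F ⇑(quadMinus F k a b))
    (ha : IsAltN (polarBilin (quadMinus F k a b)) (nilM (t : GL ((Fin k ⊕ Fin k) ⊕ Fin 2) F).1)) :
    ((t : GL ((Fin k ⊕ Fin k) ⊕ Fin 2) F).1 - 1).rank ≤ k := by
  rw [rank_nilM]
  refine finrank_le_of_singular_minus hab ?_
  rintro _ ⟨v, rfl⟩
  rw [← coe_quadMinus, Q_nilM h2]
  exact ha v

end CfsgLib.InvTwo
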