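import Mathlib

/-!
Normal bases of symmetric bilinear forms over perfect fields of characteristic two.
-/

set_option autoImplicit false

namespace CfsgLib.InvTwo

variable {F : Type*} [Field F] [Finite F]

theorem exists_sqrt (h2 : (2 : F) = 0) (a : F) : ∃ b : F, b ^ 2 = a := by
  haveI := Fintype.ofFinite F
  have hinj : Function.Injective fun b : F => b ^ 2 := fun x y h => by
    have : (x - y) * (x - y) = 0 := by linear_combination h + (y ^ 2 - x * y) * h2
    exact sub_eq_zero.1 (mul_self_eq_zero.1 this)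
  exact (Finite.injective_iff_surjective.1 hinj) a

/-- The additive map `e ↦ e + e ^ 2`. -/
def wp (h2 : (2 : F) = 0) : F →+ F :=
  AddMonoidHom.mk' (fun e => e + e ^ 2) fun a b => by linear_combination a * b * h2

theorem wp_apply (h2 : (2 : F) = 0) (e : F) : wp h2 e = e + e ^ 2 := rfl

/-- The image of `e ↦ e + e ^ 2` has index two. -/
theorem index_wp (h2 : (2 : F) = 0) : (wp h2).range.index = 2 := by
  classical
  have hker : ((wp h2).ker : Set F) = {0, 1} := by
    ext e
    simp only [SetLike.mem_coe, AddMonoidHom.mem_ker, wp_apply, Set.mem_insert_iff, Set.mem_singleton_iff]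
    constructor
    · intro he
      have : e * (e - 1) = 0 := by linear_combination he - e * h2
      rcases mul_eq_zero.1 this with h | h
      exacts [.inl h, .inr (sub_eq_zero.1 h)]
    · rintro (rfl | rfl)
      · simp
      · rw [one_pow, one_add_one_eq_two, h2]
  have hk : Nat.card (wp h2).ker = 2 := by
    show Nat.card ((wp h2).ker : Set F) = 2
    rw [hker, Nat.card_coe_set_eq, Set.ncard_pair zero_ne_one]
  have h1 := (wp h2).range.card_mul_index
  have h3 := (wp h2).ker.card_mul_index
  rw [AddSubgroup.index_ker, hk, ← h1, mul_comm _ (wp h2).range.index] at h3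
  exact (Nat.eq_of_mul_eq_mul_right Nat.card_pos h3).symm

theorem add_mem_wp (h2 : (2 : F) = 0) {c c' : F} (h : c ∈ (wp h2).range ↔ c' ∈ (wp h2).range) :
    c + c' ∈ (wp h2).range :=
  (AddSubgroup.add_mem_iff_of_index_two (index_wp h2)).2 h

variable (h2 : (2 : F) = 0)
include h2

theorem exists_scale {V : Type*} [AddCommGroup V] [Module F V] (β : V →ₗ[F] V →ₗ[F] F) {v : V} (hv : β v v ≠ 0) :
    ∃ c : F, β (c • v) (c • v) = 1 := by
  obtain ⟨c, hc⟩ := exists_sqrt h2 (β v v)⁻¹
  refine ⟨c, ?_⟩
  simp only [map_smul, LinearMap.smul_apply, smul_eq_mul]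
  rw [← mul_assoc, ← pow_two, hc, inv_mul_cancel₀ hv]

/-- An orthonormal family modulo the radical. -/
theorem exists_orthonormal (n : ℕ) :
    ∀ (V : Type*) [AddCommGroup V] [Module F V] [FiniteDimensional F V], Module.finrank F V ≤ n →
      ∀ β : V →ₗ[F] V →ₗ[F] F, (∀ u v, β u v = β v u) → (∃ v, β v v ≠ 0) →
      ∃ (k : ℕ) (b : Fin k → V), (∀ i j, β (b i) (b j) = if j = i then 1 else 0) ∧
        ∀ x, (∀ i, β x (b i) = 0) → β x = 0 := by
  induction n with
  | zero =>
    intro V _ _ _ hn β _ ⟨v, hv⟩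
    have hs : Subsingleton V := Module.finrank_zero_iff.1 (Nat.le_zero.1 hn)
    exact absurd (by rw [Subsingleton.elim v 0, map_zero]) hv
  | succ n ih =>
    intro V _ _ _ hn β hs ⟨v, hv⟩
    obtain ⟨v₁, hv₁, hgood⟩ : ∃ v₁, β v₁ v₁ = 1 ∧
        ((∃ w, β v₁ w = 0 ∧ β w w ≠ 0) ∨ ∀ x, β x v₁ = 0 → β x = 0) := by
      obtain ⟨c, hc⟩ := exists_scale h2 β hv
      generalize c • v = v₀ at hc
      by_cases h0 : ∃ w, β v₀ w = 0 ∧ β w w ≠ 0
      · exact ⟨v₀, hc, .inl h0⟩
      by_cases h1 : ∀ x, β x v₀ = 0 → β x = 0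
      · exact ⟨v₀, hc, .inr h1⟩
      push_neg at h0 h1
      obtain ⟨x, hx, hx0⟩ := h1
      obtain ⟨y, hy⟩ : ∃ y, β x y ≠ 0 := by
        by_contra hh
        push_neg at hh
        exact hx0 (LinearMap.ext hh)
      have hpx : β v₀ x = 0 := by rw [hs, hx]
      have e1 : β v₀ (y - β v₀ y • v₀) = 0 := by
        rw [map_sub, map_smul, hc, smul_eq_mul, mul_one, sub_self]
      have e2 : β x (y - β v₀ y • v₀) = β x y := by
        rw [map_sub, map_smul, hx, smul_zero, sub_zero]
      generalize (y - β v₀ y • v₀) = y₀ at e1 e2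
      have e3 : β v₀ ((β x y)⁻¹ • y₀) = 0 := by rw [map_smul, e1, smul_zero]
      have e4 : β x ((β x y)⁻¹ • y₀) = 1 := by rw [map_smul, e2, smul_eq_mul, inv_mul_cancel₀ hy]
      generalize (β x y)⁻¹ • y₀ = f at e3 e4
      have hxx := h0 x hpx
      have hff := h0 f e3
      have e3' : β f v₀ = 0 := by rw [hs, e3]
      refine ⟨v₀ + x, ?_, .inl ⟨v₀ + f, ?_, ?_⟩⟩
      · simp only [map_add, LinearMap.add_apply, hc, hxx, hx, hpx, add_zero, zero_add]
      · simp only [map_add, LinearMap.add_apply, hc, hx, e3, e4, add_zero, zero_add, one_add_one_eq_two, h2]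
      · simp only [map_add, LinearMap.add_apply, hc, e3, e3', hff, add_zero, zero_add, ne_eq, one_ne_zero,
          not_false_iff]
    have hproj : ∀ y, β v₁ (y - β v₁ y • v₁) = 0 := fun y => by
      rw [map_sub, map_smul, hv₁, smul_eq_mul, mul_one, sub_self]
    rcases hgood with ⟨w, hw, hww⟩ | hrad
    · have hlt : Module.finrank F (LinearMap.ker (β v₁)) ≤ n := by
        have hne : LinearMap.ker (β v₁) < ⊤ := lt_top_iff_ne_top.2 fun h => by
          have : v₁ ∈ LinearMap.ker (β v₁) := h ▸ trivial
          rw [LinearMap.mem_ker, hv₁] at this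
          exact one_ne_zero this
        have := Submodule.finrank_lt hne.ne
        omega
      obtain ⟨k, b, hb, hr⟩ := ih (LinearMap.ker (β v₁)) hlt
        ((β.domRestrict (LinearMap.ker (β v₁))).compl₂ (LinearMap.ker (β v₁)).subtype)
        (fun u v => hs _ _) ⟨⟨w, hw⟩, hww⟩
      refine ⟨k + 1, Fin.cons v₁ (fun i => (b i : V)), fun i j => ?_, fun x hx => ?_⟩
      · cases i using Fin.cases with
        | zero => cases j using Fin.cases with
          | zero => simpa using hv₁
          | succ j => simpa [Fin.succ_ne_zero] using (b j).2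
        | succ i => cases j using Fin.cases with
          | zero =>
            have := (b i).2
            rw [LinearMap.mem_ker, hs] at this
            simpa [(Fin.succ_ne_zero i).symm] using this
          | succ j => simpa [Fin.succ_inj] using hb i j
      · have h0 : β x v₁ = 0 := by simpa using hx 0
        have hxk : x ∈ LinearMap.ker (β v₁) := by rw [LinearMap.mem_ker, hs, h0]
        have h1 := hr ⟨x, hxk⟩ fun i => by simpa using hx i.succ
        refine LinearMap.ext fun y => ?_
        have h3 := LinearMap.congr_fun h1 ⟨y - β v₁ y • v₁, LinearMap.mem_ker.2 (hproj y)⟩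
        simp only [LinearMap.compl₂_apply, LinearMap.domRestrict_apply, Submodule.coe_subtype, map_sub, map_smul,
          h0, smul_zero, sub_zero, LinearMap.zero_apply] at h3
        exact h3
    · refine ⟨1, fun _ => v₁, fun i j => ?_, fun x hx => hrad x (hx 0)⟩
      rw [if_pos (Subsingleton.elim j i)]
      exact hv₁

/-- A hyperbolic family modulo the radical. -/
theorem exists_hyperbolic (n : ℕ) :
    ∀ (V : Type*) [AddCommGroup V] [Module F V] [FiniteDimensional F V], Module.finrank F V ≤ n →
      ∀ β : V →ₗ[F] V →ₗ[F] F, (∀ u v, β u v = β v u) → (∀ v, β v v = 0) →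
      ∃ (r : ℕ) (b : Fin r ⊕ Fin r → V), (∀ i j, β (b i) (b j) = if j = i.swap then 1 else 0) ∧
        ∀ x, (∀ i, β x (b i) = 0) → β x = 0 := by
  induction n using Nat.strong_induction_on with
  | _ n ih =>
    intro V _ _ _ hn β hs ha
    by_cases h0 : β = 0
    · exact ⟨0, Sum.elim Fin.elim0 Fin.elim0, fun i => by rcases i with i | i <;> exact i.elim0,
        fun x _ => by rw [h0, LinearMap.zero_apply]⟩
    obtain ⟨e, f, hef⟩ : ∃ e f, β e f = 1 := by
      have : ∃ x y, β x y ≠ 0 := by
        by_contra hh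
        push_neg at hh
        exact h0 (LinearMap.ext fun x => LinearMap.ext fun y => hh x y)
      obtain ⟨x, y, hy⟩ := this
      exact ⟨x, (β x y)⁻¹ • y, by rw [map_smul, smul_eq_mul, inv_mul_cancel₀ hy]⟩
    have hfe : β f e = 1 := by rw [hs, hef]
    have hlt : Module.finrank F ↥(LinearMap.ker (β e) ⊓ LinearMap.ker (β f)) < n := by
      refine lt_of_lt_of_le (Submodule.finrank_lt fun h => ?_) hn
      have : f ∈ LinearMap.ker (β e) ⊓ LinearMap.ker (β f) := h ▸ trivial
      rw [Submodule.mem_inf, LinearMap.mem_ker, hef] at this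
      exact one_ne_zero this.1
    obtain ⟨r, b, hb, hr⟩ := ih _ hlt ↥(LinearMap.ker (β e) ⊓ LinearMap.ker (β f)) le_rfl
      ((β.domRestrict _).compl₂ (LinearMap.ker (β e) ⊓ LinearMap.ker (β f)).subtype)
      (fun u v => hs _ _) (fun v => ha _)
    have hbe : ∀ i, β e (b i) = 0 ∧ β f (b i) = 0 ∧ β (b i) e = 0 ∧ β (b i) f = 0 := fun i => by
      have := (b i).2
      rw [Submodule.mem_inf, LinearMap.mem_ker, LinearMap.mem_ker] at this
      exact ⟨this.1, this.2, by rw [hs, this.1], by rw [hs, this.2]⟩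
    have hb' : ∀ i j, β (b i : V) (b j : V) = if j = i.swap then 1 else 0 := hb
    refine ⟨r + 1, Sum.elim (Fin.cons e fun i => (b (.inl i) : V)) (Fin.cons f fun i => (b (.inr i) : V)),
      fun i j => ?_, fun x hx => ?_⟩
    · rcases i with i | i <;> rcases j with j | j <;> cases i using Fin.cases <;> cases j using Fin.cases <;>
        simp [hef, hfe, ha, hbe, hb', Fin.succ_inj, Fin.succ_ne_zero, (Fin.succ_ne_zero _).symm]
    · have hxe : β x e = 0 := by simpa using hx (.inl 0)
      have hxf : β x f = 0 := by simpa using hx (.inr 0)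
      have hxk : x ∈ LinearMap.ker (β e) ⊓ LinearMap.ker (β f) := by
        rw [Submodule.mem_inf, LinearMap.mem_ker, LinearMap.mem_ker, hs, hxe, hs, hxf]
        exact ⟨rfl, rfl⟩
      have h1 := hr ⟨x, hxk⟩ fun i => by
        rcases i with i | i
        · simpa using hx (.inl i.succ)
        · simpa using hx (.inr i.succ)
      refine LinearMap.ext fun y => ?_
      have hy : y - β f y • e - β e y • f ∈ LinearMap.ker (β e) ⊓ LinearMap.ker (β f) := by
        rw [Submodule.mem_inf, LinearMap.mem_ker, LinearMap.mem_ker]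
        simp [hef, hfe, ha]
      have h3 := LinearMap.congr_fun h1 ⟨_, hy⟩
      simp only [LinearMap.compl₂_apply, LinearMap.domRestrict_apply, Submodule.coe_subtype, map_sub, map_smul,
        hxe, hxf, smul_zero, sub_zero, LinearMap.zero_apply] at h3
      exact h3

end CfsgLib.InvTwo
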