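import Cfsg.Agent.InvTwo.StdFam
import Cfsg.Agent.InvTwo.Classes
import Cfsg.Prelude.Def_ClassicalGeometry

/-!
The symplectic group in characteristic two through the polar form of `quadPlus`.
-/

set_option autoImplicit false
set_option linter.unusedSectionVars false

namespace CfsgLib.InvTwo

open QuadraticMap Matrix
open CfsgLib.Forms

variable {F : Type*} [Field F] [Finite F] {m : ℕ} (h2 : (2 : F) = 0)

local notation "P" => polarBilin (quadPlus F m)

include h2

theorem sympForm_eq (u v : Fin m ⊕ Fin m → F) : Cfsg.sympForm m F u v = P u v := by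
  rw [polarBilin_apply_apply, coe_quadPlus, polar_plus]
  simp only [Cfsg.sympForm, Matrix.J, dotProduct, Fintype.sum_sum_type, Matrix.fromBlocks_mulVec, Sum.elim_inl,
    Sum.elim_inr, Matrix.zero_mulVec, Matrix.neg_mulVec, Matrix.one_mulVec, Pi.add_apply, Pi.neg_apply,
    Pi.zero_apply, Function.comp_apply, zero_add, add_zero]
  rw [← Finset.sum_add_distrib]
  exact Finset.sum_congr rfl fun i _ => by linear_combination -(u (.inl i) * v (.inr i)) * h2

theorem mem_sp_iff (A : Matrix (Fin m ⊕ Fin m) (Fin m ⊕ Fin m) F) :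
    A ∈ Matrix.symplecticGroup (Fin m) F ↔ ∀ u v, P (A *ᵥ u) (A *ᵥ v) = P u v := by
  rw [SymplecticGroup.mem_iff']
  have e : ∀ u v, P (A *ᵥ u) (A *ᵥ v) = u ⬝ᵥ ((Aᵀ * Matrix.J (Fin m) F * A) *ᵥ v) := fun u v => by
    rw [← sympForm_eq h2, Cfsg.sympForm, ← mulVec_mulVec, ← mulVec_mulVec, Matrix.dotProduct_mulVec u Aᵀ,
      Matrix.vecMul_transpose]
  constructor
  · intro h u v
    rw [e, h, ← sympForm_eq h2]; rfl
  · intro h
    refine Matrix.ext fun i j => ?_
    have := h (Pi.single i 1) (Pi.single j 1)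
    rw [e, ← sympForm_eq h2, Cfsg.sympForm] at this
    simpa using this

theorem sp_isUnit (a : Matrix.symplecticGroup (Fin m) F) : IsUnit a.1.det := SymplecticGroup.symplectic_det a.2

theorem selfAdj_sp {a : Matrix.symplecticGroup (Fin m) F} (ha : a * a = 1) : SelfAdj P (nilM a.1) :=
  selfAdj_nilM h2 (polar_self_zero h2) (polarBilin_inj (nondegenerate_quadPlus m)) (congrArg Subtype.val ha)
    ((mem_sp_iff h2 _).1 a.2)

/-- Conjugacy of involutions of the symplectic group. -/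
theorem isConj_sp_iff {a b : Matrix.symplecticGroup (Fin m) F} (ha : a * a = 1) (hb : b * b = 1) :
    IsConj a b ↔ (a.1 - 1).rank = (b.1 - 1).rank ∧ (IsAltN P (nilM a.1) ↔ IsAltN P (nilM b.1)) := by
  constructor
  · intro h
    obtain ⟨g, hg⟩ := isConj_iff.1 h
    refine inv_of_conj (G := g.1) (sp_isUnit h2 g) ((mem_sp_iff h2 _).1 g.2) ?_
    have : g * a = b * g := by rw [← hg, inv_mul_cancel_right]
    exact congrArg Subtype.val this
  · rintro ⟨hr, hal⟩
    rw [rank_nilM, rank_nilM] at hr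
    obtain ⟨g, hg, hgN⟩ := exists_conj_of_inv (selfAdj_sp h2 ha) (selfAdj_sp h2 hb) hr hal
    have hG : LinearMap.toMatrix' (g : (Fin m ⊕ Fin m → F) →ₗ[F] (Fin m ⊕ Fin m → F)) ∈
        Matrix.symplecticGroup (Fin m) F := (mem_sp_iff h2 _).2 fun u v => by
      rw [LinearMap.toMatrix'_mulVec, LinearMap.toMatrix'_mulVec]; exact hg u v
    refine isConj_iff.2 ⟨⟨_, hG⟩, ?_⟩
    rw [mul_inv_eq_iff_eq_mul]
    exact Subtype.ext (toMatrix'_mul_eq hgN)

theorem sympForm_mulVec_eq (a : Matrix (Fin m ⊕ Fin m) (Fin m ⊕ Fin m) F) (v : Fin m ⊕ Fin m → F) :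
    Cfsg.sympForm m F v (a *ᵥ v) = P v (nilM a v) := by
  rw [sympForm_eq h2, nilM_apply, map_sub, polar_self_zero h2, sub_zero]

/-- The invariant of a symplectic matrix. -/
theorem orderOf_sp {a : Matrix.symplecticGroup (Fin m) F} (ha : a * a = 1) (hr : (a.1 - 1).rank ≠ 0) :
    orderOf a = 2 :=
  orderOf_eq_prime (by rw [pow_two]; exact ha) fun h => hr (by simp [h])

theorem exists_sp_of_iso (t : Cfsg.isometryGroup F ⇑(quadPlus F m)) (ht : t * t = 1) :
    ∃ a : Matrix.symplecticGroup (Fin m) F, a * a = 1 ∧ a.1 = (t : GL (Fin m ⊕ Fin m) F).1 :=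
  ⟨⟨_, (mem_sp_iff h2 _).2 fun u v => by rw [polarBilin_apply_apply, polarBilin_apply_apply, polar_iso]⟩,
    Subtype.ext (congrArg (fun x : Cfsg.isometryGroup F ⇑(quadPlus F m) => (x : GL (Fin m ⊕ Fin m) F).1) ht), rfl⟩

/-- Classes of involutions of the symplectic group. -/
theorem card_classes_sp :
    Nat.card {C : ConjClasses (Matrix.symplecticGroup (Fin m) F) //
      ∃ g : Matrix.symplecticGroup (Fin m) F, ConjClasses.mk g = C ∧ orderOf g = 2} = m + m / 2 := by
  refine (card_classes_of_inv (fun a : Matrix.symplecticGroup (Fin m) F => ((a.1 - 1).rank, IsAltN P (nilM a.1)))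
    (label 1 (p := m) (a := m / 2)) (label_injective le_rfl) (fun g h hg hh => ?_) (fun g hg => ?_) ?_).trans
    (by simp)
  · rw [isConj_sp_iff h2 (mul_self_of_orderOf hg) (mul_self_of_orderOf hh), Prod.mk.injEq, eq_iff_iff]
  · have hN := selfAdj_sp h2 (mul_self_of_orderOf hg)
    have h1 := rank_ne_zero (A := g.1) fun e => ne_one_of_orderOf hg (Subtype.ext e)
    have h3 := two_rank_le hN
    simp only [Fintype.card_sum, Fintype.card_fin] at h3
    by_cases h : IsAltN P (nilM g.1)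
    · obtain ⟨j, hj⟩ := even_of_alt hN h
      exact ⟨.inr ⟨j - 1, by omega⟩, Prod.ext (by show (g.1 - 1).rank = j - 1 + 1 + (j - 1 + 1); omega) (eq_true h)⟩
    · exact ⟨.inl ⟨(g.1 - 1).rank - 1, by omega⟩,
        Prod.ext (by show (g.1 - 1).rank = 1 * ((g.1 - 1).rank - 1 + 1); omega) (eq_false h)⟩
  · rintro (i | j)
    · obtain ⟨t, ht, hr, ha⟩ := exists_nonalt_plus (F := F) h2 (m := m) (s := i.1 + 1) (by omega) (by omega)
      obtain ⟨a, haa, e⟩ := exists_sp_of_iso h2 t ht
      rw [← e] at hr ha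
      exact ⟨a, orderOf_sp h2 haa (by omega), Prod.ext (by show _ = 1 * (i.1 + 1); rw [one_mul]; exact hr) (eq_false ha)⟩
    · obtain ⟨t, ht, hr, ha⟩ := exists_alt_plus (F := F) h2 (m := m) (r := j.1 + 1) (by omega)
      obtain ⟨a, haa, e⟩ := exists_sp_of_iso h2 t ht
      rw [← e] at hr ha
      exact ⟨a, orderOf_sp h2 haa (by omega), Prod.ext hr (eq_true ha)⟩

end CfsgLib.InvTwo
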